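/- U4 tower (row S5210), `q = 2`: computations in `GL₄(2)` acting on `A`. -/
import Cfsg.Agent.H28.U4Gen

set_option autoImplicit false
set_option linter.unusedSectionVars false
set_option linter.unusedSimpArgs false
set_option linter.unusedVariables false
set_option maxRecDepth 100000

open Subgroup H90.RF H92 Cfsg H28.U4

namespace H88.U4Q

/-- a bit -/
def z (b : Bool) : ZMod 2 := cond b 1 0
/-- the element of `A` with code `n` -/
def e (n : ℕ) : Co T4 := vz (z (n.testBit 0)) ⟨z (n.testBit 1), z (n.testBit 2)⟩ (z (n.testBit 3))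

theorem e_mem (n : ℕ) : e n ∈ sA T4 := rfl
theorem z_xor (a b : Bool) : z (a ^^ b) = z a + z b := by cases a <;> cases b <;> decide
theorem e_xor (x y : ℕ) : e (x ^^^ y) = e x * e y := by
  simp only [e, Nat.testBit_xor]
  generalize x.testBit 0 = a0; generalize x.testBit 1 = a1; generalize x.testBit 2 = a2
  generalize x.testBit 3 = a3; generalize y.testBit 0 = b0; generalize y.testBit 1 = b1
  generalize y.testBit 2 = b2; generalize y.testBit 3 = b3
  ext <;> simp [vz, z_xor]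
theorem e_zero : e 0 = 1 := by decide
theorem e_mod (n : ℕ) : e (n % 16) = e n := by
  simp only [e, show 16 = 2 ^ 4 from rfl, Nat.testBit_mod_two_pow]; simp
theorem e_inj' : ∀ x < 16, ∀ y < 16, e x = e y → x = y := by decide +kernel
theorem e_inj {x y : ℕ} (h : e x = e y) : x % 16 = y % 16 :=
  e_inj' _ (Nat.mod_lt _ (by norm_num)) _ (Nat.mod_lt _ (by norm_num)) (by rw [e_mod, e_mod, h])
theorem e_of {x y : ℕ} (h : x % 16 = y % 16) : e x = e y := by rw [← e_mod x, h, e_mod]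
theorem e_sur' : ∀ u : Co T4, u.a = 0 → ∃ n < 16, e n = u := by decide +kernel
theorem e_sur {u : Co T4} (h : u ∈ sA T4) : ∃ n < 16, e n = u := e_sur' u h
theorem e_Z' : ∀ n < 16, (((e n).a = 0 ∧ (e n).b = 0 ∧ (e n).c = 0) ↔ n % 8 = 0) ∧
    (((e n).a = 0 ∧ (e n).b = 0) ↔ n % 2 = 0) := by decide +kernel
theorem e_Z (n : ℕ) : e n ∈ sZ T4 ↔ n % 8 = 0 := by
  rw [← e_mod, mem_sZ, (e_Z' _ (Nat.mod_lt _ (by norm_num))).1]; omega
theorem e_D (n : ℕ) : e n ∈ sD T4 ↔ n % 2 = 0 := by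
  rw [← e_mod, H28.U4.mem_sD, (e_Z' _ (Nat.mod_lt _ (by norm_num))).2]; omega

/-- the images of the basis -/
abbrev Mt : Type := ℕ × ℕ × ℕ × ℕ
/-- a linear map on codes -/
def ap (m : Mt) (n : ℕ) : ℕ := (cond (n.testBit 0) m.1 0 ^^^ cond (n.testBit 1) m.2.1 0) ^^^
  (cond (n.testBit 2) m.2.2.1 0 ^^^ cond (n.testBit 3) m.2.2.2 0)

/-- `f` describes `α` on `A` -/
def R (α : Co T4 → Co T4) (f : ℕ → ℕ) : Prop := ∀ n, α (e n) = e (f n)

theorem e_id (n : ℕ) : e n = e (ap (1, 2, 4, 8) n) := by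
  rw [e, ap]
  generalize n.testBit 0 = a0; generalize n.testBit 1 = a1; generalize n.testBit 2 = a2
  generalize n.testBit 3 = a3
  revert a0 a1 a2 a3; decide +kernel

theorem R_of {α : Co T4 → Co T4} (a : Au (sA T4) α) {m : Mt} (h0 : α (e 1) = e m.1) (h1 : α (e 2) = e m.2.1)
    (h2 : α (e 4) = e m.2.2.1) (h3 : α (e 8) = e m.2.2.2) : R α (ap m) := fun n => by
  have k : ∀ (b : Bool) (k l : ℕ), α (e k) = e l → α (e (cond b k 0)) = e (cond b l 0) := fun b k l h => by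
    cases b
    · simp [e_zero, a.one]
    · exact h
  rw [e_id, ap, ap]
  simp only [e_xor]
  rw [a.mul _ (mul_mem (e_mem _) (e_mem _)) _ (mul_mem (e_mem _) (e_mem _)), a.mul _ (e_mem _) _ (e_mem _),
    a.mul _ (e_mem _) _ (e_mem _), k _ _ _ h0, k _ _ _ h1, k _ _ _ h2, k _ _ _ h3]

theorem exists_R {α : Co T4 → Co T4} (a : Au (sA T4) α) :
    ∃ m0 < 16, ∃ m1 < 16, ∃ m2 < 16, ∃ m3 < 16, R α (ap (m0, m1, m2, m3)) := by
  obtain ⟨m0, l0, e0⟩ := e_sur (a.mem _ (e_mem 1))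
  obtain ⟨m1, l1, e1⟩ := e_sur (a.mem _ (e_mem 2))
  obtain ⟨m2, l2, e2⟩ := e_sur (a.mem _ (e_mem 4))
  obtain ⟨m3, l3, e3⟩ := e_sur (a.mem _ (e_mem 8))
  exact ⟨m0, l0, m1, l1, m2, l2, m3, l3, R_of a e0.symm e1.symm e2.symm e3.symm⟩

/-- agreement on the codes -/
def eqv (f g : ℕ → ℕ) : Bool := (List.range 16).all fun n => f n % 16 == g n % 16
theorem eqv_iff {f g : ℕ → ℕ} : eqv f g = true ↔ ∀ n < 16, f n % 16 = g n % 16 := by simp [eqv]

variable {Y Y' : Subgroup (Equiv.Perm (Co T4))} {α β : Equiv.Perm (Co T4)} {f g : ℕ → ℕ}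

theorem eq_of (o : ∀ c, c ∉ sA T4 → α c = β c) (a : R α f) (b : R β g) (h : eqv f g = true) : α = β :=
  Equiv.ext fun u => by
    by_cases hu : u ∈ sA T4
    · obtain ⟨n, l, rfl⟩ := e_sur hu
      rw [a, b, e_of (eqv_iff.1 h n l)]
    · exact o u hu

theorem R.eqv (a : R α f) (b : R α g) : eqv f g = true := eqv_iff.2 fun n _ => e_inj (by rw [← a, ← b])

theorem R.mul (a : R α f) (b : R β g) : R ⇑(α * β) (fun n => f (g n)) := fun n => by
  rw [Equiv.Perm.mul_apply, b, a]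

/-- the flag is kept -/
def pz (f : ℕ → ℕ) : Bool :=
  (List.range 16).all fun n => (n % 8 != 0 || f n % 8 == 0) && (n % 2 != 0 || f n % 2 == 0)

theorem pz_iff (a : R α f) : PZ T4 α ↔ pz f = true := by
  simp only [pz, List.all_eq_true, List.mem_range, Bool.and_eq_true, Bool.or_eq_true, bne_iff_ne, beq_iff_eq]
  constructor
  · intro h n _
    refine ⟨or_iff_not_imp_left.2 fun k => ?_, or_iff_not_imp_left.2 fun k => ?_⟩
    · rw [← e_Z, ← a]; exact h.1 _ ((e_Z n).2 (not_not.1 k))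
    · rw [← e_D, ← a]; exact h.2 _ ((e_D n).2 (not_not.1 k))
  · intro h
    refine ⟨fun u hu => ?_, fun u hu => ?_⟩
    · obtain ⟨n, l, rfl⟩ := e_sur (Z_le_A hu)
      rw [a, e_Z]; exact (h n l).1.resolve_left (not_not.2 ((e_Z n).1 hu))
    · obtain ⟨n, l, rfl⟩ := e_sur (D_le_A hu)
      rw [a, e_D]; exact (h n l).2.resolve_left (not_not.2 ((e_D n).1 hu))

/-- `x_1` -/
def X1 : Mt := (11, 2, 12, 8)
/-- `x_ω` -/
def X2 : Mt := (13, 10, 4, 8)
/-- `x_{1+ω}` -/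
def X3 : Mt := (15, 10, 12, 8)
/-- `r1` -/
def R1 : Mt := (13, 8, 11, 10)
/-- `r2` -/
def R2 : Mt := (10, 15, 12, 4)
/-- the conjugate of `r1` -/
def R3 : Mt := (15, 8, 3, 10)

theorem au_ux (t : F4) : Au (sA T4) (ux T4 t) := by
  refine Au.congr (β := fun u => xa T4 t * u * (xa T4 t)⁻¹) ?_ fun c hc => (ux_apply t hc).symm
  refine Au.of_inj (fun c hc => (cj_A _ hc).1) (fun c _ d _ => by group) fun c _ d _ h => by simpa using h

theorem R_X1 : R (ux T4 1) (ap X1) :=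
  R_of (au_ux _) (by rw [ux_apply _ (e_mem _)]; decide +kernel) (by rw [ux_apply _ (e_mem _)]; decide +kernel)
    (by rw [ux_apply _ (e_mem _)]; decide +kernel) (by rw [ux_apply _ (e_mem _)]; decide +kernel)
theorem R_X2 : R (ux T4 om) (ap X2) :=
  R_of (au_ux _) (by rw [ux_apply _ (e_mem _)]; decide +kernel) (by rw [ux_apply _ (e_mem _)]; decide +kernel)
    (by rw [ux_apply _ (e_mem _)]; decide +kernel) (by rw [ux_apply _ (e_mem _)]; decide +kernel)
theorem R_X3 : R (ux T4 (1 + om)) (ap X3) :=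
  R_of (au_ux _) (by rw [ux_apply _ (e_mem _)]; decide +kernel) (by rw [ux_apply _ (e_mem _)]; decide +kernel)
    (by rw [ux_apply _ (e_mem _)]; decide +kernel) (by rw [ux_apply _ (e_mem _)]; decide +kernel)
theorem R_X0 : R (ux T4 0) id := fun n => by rw [ux_zero]; rfl
theorem F4_cases : ∀ t : F4, t = 0 ∨ t = 1 ∨ t = om ∨ t = 1 + om := by decide +kernel

/-- a `2`-element that keeps the flag and is not in `U` -/
def bad (f : ℕ → ℕ) : Bool :=
  pz f && !eqv f id && !eqv f (ap X1) && !eqv f (ap X2) && !eqv f (ap X3) && eqv (fun n => f (f (f (f n)))) id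

theorem not_bad (h : Sa T4 2 Y) (hα : α ∈ Y) (a : R α f) : bad f = true → False := by
  simp only [bad, Bool.and_eq_true, Bool.not_eq_true']
  rintro ⟨⟨⟨⟨⟨p, n0⟩, n1⟩, n2⟩, n3⟩, q⟩
  have q' : α * (α * (α * α)) = 1 :=
    eq_of (fun c hc => h.lg.out _ (mul_mem hα (mul_mem hα (mul_mem hα hα))) c hc)
      (a.mul (a.mul (a.mul a))) (g := id) (fun n => rfl) q
  obtain ⟨t, rfl⟩ := h.pel α hα ((pz_iff a).2 p) ⟨2, by rw [← q']; simp [pow_succ, mul_assoc]⟩
  rcases F4_cases t with rfl | rfl | rfl | rfl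
  · simp [a.eqv R_X0] at n0
  · simp [a.eqv R_X1] at n1
  · simp [a.eqv R_X2] at n2
  · simp [a.eqv R_X3] at n3

/-- the generators -/
def gs (a r s : Mt) : ℕ → ℕ → ℕ
  | 0 => ap X1 | 1 => ap X2 | 2 => ap a | 3 => ap r | _ => ap s
/-- the value of a word -/
def ev (a r s : Mt) (w : List ℕ) (n : ℕ) : ℕ := w.foldr (gs a r s) n

/-- `Y` contains the map with matrix `m` -/
def In' (Y : Subgroup (Equiv.Perm (Co T4))) (f : ℕ → ℕ) : Prop := ∃ α : Equiv.Perm (Co T4), α ∈ Y ∧ R α f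

theorem in_ev (h : Sa T4 2 Y) {a r s : Mt} (ha : In' Y (ap a)) (hr : In' Y (ap r)) (hs : In' Y (ap s))
    (w : List ℕ) : In' Y (ev a r s w) := by
  induction w with
  | nil => exact ⟨1, one_mem _, fun _ => rfl⟩
  | cons i w ih =>
    obtain ⟨β, hβ, b⟩ := ih
    have : In' Y (gs a r s i) := by
      match i with
      | 0 => exact ⟨_, h.ux_mem _, R_X1⟩
      | 1 => exact ⟨_, h.ux_mem _, R_X2⟩
      | 2 => exact ha
      | 3 => exact hr
      | _ + 4 => exact hs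
    obtain ⟨γ, hγ, c⟩ := this
    exact ⟨γ * β, mul_mem hγ hβ, c.mul b⟩

/-- a singular map -/
def sing (f : ℕ → ℕ) : Bool := (List.range 15).any fun n => f (n + 1) % 16 == 0

theorem not_sing (au : Au (sA T4) α) (a : R α f) : sing f = true → False := by
  simp only [sing, List.any_eq_true, List.mem_range, beq_iff_eq]
  rintro ⟨n, l, k⟩
  have := e_inj (x := n + 1) (y := 0) (by
    rw [e_zero]; exact au.inj _ (e_mem _) (by rw [a, ← e_zero]; exact e_of k))
  omega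

/-- the test over all maps that commute with `x` -/
def allC (x : Mt) (P : Mt → Bool) : Bool :=
  (List.range 16).all fun m3 => ap x m3 != m3 || (List.range 16).all fun m1 =>
    (ap (0, m1, 0, m3) (ap x 2) != ap x m1) || (List.range 16).all fun m2 =>
      (ap (0, m1, m2, m3) (ap x 4) != ap x m2) || (List.range 16).all fun m0 =>
        (ap (m0, m1, m2, m3) (ap x 1) != ap x m0) || sing (ap (m0, m1, m2, m3)) || P (m0, m1, m2, m3)

theorem ap_lt {m : Mt} (h0 : m.1 < 16) (h1 : m.2.1 < 16) (h2 : m.2.2.1 < 16) (h3 : m.2.2.2 < 16) (n : ℕ) :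
    ap m n < 16 := by
  have k : ∀ (b : Bool) (l : ℕ), l < 16 → cond b l 0 < 2 ^ 4 := fun b l h => by cases b <;> simp [h]
  exact Nat.xor_lt_two_pow (n := 4) (Nat.xor_lt_two_pow (k _ _ h0) (k _ _ h1))
    (Nat.xor_lt_two_pow (k _ _ h2) (k _ _ h3))

theorem of_allC {x : Mt} {P : Mt → Bool} (H : allC x P = true) {t : F4} (hx : R (ux T4 t) (ap x))
    (lx : ∀ n, ap x n < 16) (x8 : ap x 8 = 8) (x2 : ap x 2 = 2 ∨ ap x 2 = 10) (x4 : ap x 4 = 4 ∨ ap x 4 = 12)
    (au : Au (sA T4) α) (c : α * ux T4 t = ux T4 t * α) : ∃ m, R α (ap m) ∧ P m = true := by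
  obtain ⟨m0, l0, m1, l1, m2, l2, m3, l3, a⟩ := exists_R au
  refine ⟨_, a, ?_⟩
  have k : ∀ n < 16, ap (m0, m1, m2, m3) (ap x n) = ap x (ap (m0, m1, m2, m3) n) := fun n l => by
    have := eqv_iff.1 ((a.mul hx).eqv (c ▸ hx.mul a)) n l
    rwa [Nat.mod_eq_of_lt (ap_lt l0 l1 l2 l3 _), Nat.mod_eq_of_lt (lx _)] at this
  have k1 := k 1 (by norm_num)
  have k2 := k 2 (by norm_num)
  have k4 := k 4 (by norm_num)
  have k8 := k 8 (by norm_num)
  have a1 : ap (m0, m1, m2, m3) 1 = m0 := by simp [ap, Nat.testBit]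
  have a2 : ∀ y0 y2, ap (y0, m1, y2, m3) 2 = m1 := by simp [ap, Nat.testBit]
  have a4 : ∀ y0, ap (y0, m1, m2, m3) 4 = m2 := by simp [ap, Nat.testBit]
  have a8 : ap (m0, m1, m2, m3) 8 = m3 := by simp [ap, Nat.testBit]
  have a10 : ∀ y0 y2, ap (y0, m1, y2, m3) 10 = m1 ^^^ m3 := by simp [ap, Nat.testBit]
  have a12 : ∀ y0, ap (y0, m1, m2, m3) 12 = m2 ^^^ m3 := by simp [ap, Nat.testBit]
  simp only [allC, List.all_eq_true, List.mem_range, Bool.or_eq_true, bne_iff_ne] at H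
  rw [a1] at k1; rw [a2] at k2; rw [a4] at k4; rw [x8, a8] at k8
  have := ((((((H m3 l3).resolve_left (not_not.2 k8.symm)) m1 l1).resolve_left (not_not.2 ?_)) m2 l2).resolve_left
    (not_not.2 ?_)) m0 l0
  · exact this.resolve_left fun j => j.elim (fun j => j k1) (not_sing au a)
  · rw [← k2]; rcases x2 with j | j <;> rw [j] <;> simp only [a2, a10]
  · rw [← k4]; rcases x4 with j | j <;> rw [j] <;> simp only [a4, a12]

theorem r1_e : ∀ n < 16, r1 (e n) = e (ap R1 n) := by decide +kernel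
theorem r2_e : ∀ n < 16, r2 (e n) = e (ap R2 n) := by decide +kernel
theorem r3_e : ∀ n < 16, th (r1 (th (e n))) = e (ap R3 n) := by decide +kernel

theorem in_of_hs (h : Sa T4 2 Y) {F : Co T4 → Co T4} {m : Mt} (k : ∀ n < 16, F (e n) = e (ap m n))
    (a1 : ap m 1 = m.1) (a2 : ap m 2 = m.2.1) (a4 : ap m 4 = m.2.2.1) (a8 : ap m 8 = m.2.2.2)
    (H : Hs F Y) : In' Y (ap m) := by
  obtain ⟨α, hα, j⟩ := H
  exact ⟨α, hα, R_of (h.lg.au α hα) (by rw [j _ (e_mem _), k _ (by norm_num), a1])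
    (by rw [j _ (e_mem _), k _ (by norm_num), a2]) (by rw [j _ (e_mem _), k _ (by norm_num), a4])
    (by rw [j _ (e_mem _), k _ (by norm_num), a8])⟩

theorem hs_of_in {F : Co T4 → Co T4} {m : Mt} (k : ∀ n < 16, F (e n) = e (ap m n)) (H : In' Y f)
    (q : eqv f (ap m) = true) : Hs F Y := by
  obtain ⟨α, hα, a⟩ := H
  refine ⟨α, hα, fun u hu => ?_⟩
  obtain ⟨n, l, rfl⟩ := e_sur hu
  rw [a, k n l, e_of (eqv_iff.1 q n l)]

theorem c1 : allC X1 (fun m => pz (ap m) || [[2, 2], [2, 1, 2, 1], [1, 2, 2, 1], [1, 2, 1, 2]].any fun w =>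
    bad (ev m m m w) || eqv (ev m m m w) (ap R1) || eqv (ev m m m w) (ap R3)) = true := by decide +kernel
theorem c2 : allC X2 (fun m => pz (ap m) ||
    [[2, 2], [2, 0, 2, 0], [3, 2, 2, 3, 2, 2, 3], [2, 3, 2, 0, 2, 3, 2], [0, 2, 0, 2]].any fun w =>
    bad (ev m R1 R1 w) || eqv (ev m R1 R1 w) (ap R2)) = true := by decide +kernel
theorem c3 : allC X3 (fun m => pz (ap m) ||
    [[2, 2], [2, 0, 2], [2, 2, 2], [2, 0, 2, 0, 2], [2, 3, 2, 3, 2], [2, 4, 2, 4, 2], [4, 2, 4, 1, 2, 4],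
      [3, 2, 3, 0, 2, 3], [2, 3, 3, 2, 3, 2], [2, 4, 4, 2, 4, 2], [2, 3, 1, 2, 3, 0, 2],
      [2, 4, 0, 2, 4, 0, 2]].any fun w => bad (ev m R1 R2 w)) = true := by decide +kernel
theorem c4 : allC X1 (fun m => ([[2, 2, 2], [3, 2], [3, 1, 2]].any fun w => bad (ev m R1 R1 w)) ||
    [[], [1, 3], [3, 1, 0], [3, 3, 0], [0], [1, 3, 0], [3, 1], [3, 3], [3], [1], [3, 0], [1, 0]].any fun w =>
      eqv (ap m) (ev R1 R1 R1 w)) = true := by decide +kernel
theorem c5 : allC X2 (fun m => ([[2, 2, 2], [2, 3], [2, 0, 3]].any fun w => bad (ev m R2 R2 w)) ||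
    [[], [3, 0], [0, 3, 1], [3, 1], [0, 3], [3], [0], [3, 3], [1], [3, 1, 0], [3, 3, 1], [1, 0]].any fun w =>
      eqv (ap m) (ev R2 R2 R2 w)) = true := by decide +kernel

theorem lt1 (n : ℕ) : ap X1 n < 16 := ap_lt (by decide) (by decide) (by decide) (by decide) n
theorem lt2 (n : ℕ) : ap X2 n < 16 := ap_lt (by decide) (by decide) (by decide) (by decide) n
theorem lt3 (n : ℕ) : ap X3 n < 16 := ap_lt (by decide) (by decide) (by decide) (by decide) n

theorem In'.not_bad (h : Sa T4 2 Y) (H : In' Y f) : bad f = true → False :=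
  let ⟨_, hα, a⟩ := H
  U4Q.not_bad h hα a

theorem jobQa : H28.U4.JobQa := fun Y h => by
  have i1 := in_of_hs h r1_e (by decide) (by decide) (by decide) (by decide)
  have i2 := in_of_hs h r2_e (by decide) (by decide) (by decide) (by decide)
  refine ⟨fun ⟨α, hα, c, n⟩ => ?_, fun h1 ⟨α, hα, c, n⟩ => ?_, fun h1 h2 ⟨α, hα, c, n⟩ => ?_⟩
  · obtain ⟨m, a, p⟩ := of_allC c1 R_X1 lt1 (by decide) (by decide) (by decide) (h.lg.au α hα) c
    simp only [Bool.or_eq_true, List.any_eq_true] at p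
    obtain ⟨w, -, p⟩ := p.resolve_left fun k => n ((pz_iff a).2 k)
    have j := in_ev h ⟨α, hα, a⟩ ⟨α, hα, a⟩ ⟨α, hα, a⟩ w
    rcases p with (p | p) | p
    · exact (j.not_bad h p).elim
    · exact Or.inl (hs_of_in r1_e j p)
    · exact Or.inr (hs_of_in r3_e j p)
  · obtain ⟨m, a, p⟩ := of_allC c2 R_X2 lt2 (by decide) (by decide) (by decide) (h.lg.au α hα) c
    simp only [Bool.or_eq_true, List.any_eq_true] at p
    obtain ⟨w, -, p⟩ := p.resolve_left fun k => n ((pz_iff a).2 k)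
    have j := in_ev h ⟨α, hα, a⟩ (i1 h1) (i1 h1) w
    exact p.elim (fun p => (j.not_bad h p).elim) (hs_of_in r2_e j)
  · obtain ⟨m, a, p⟩ := of_allC c3 R_X3 lt3 (by decide) (by decide) (by decide) (h.lg.au α hα) c
    simp only [Bool.or_eq_true, List.any_eq_true] at p
    obtain ⟨w, -, p⟩ := p.resolve_left fun k => n ((pz_iff a).2 k)
    exact (in_ev h ⟨α, hα, a⟩ (i1 h1) (i2 h2) w).not_bad h p

theorem qb (h : Sa T4 2 Y) (h' : Sa T4 2 Y') (hα : α ∈ Y) {m r : Mt} (a : R α (ap m)) (i : In' Y (ap r))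
    (i' : In' Y' (ap r)) {W W' : List (List ℕ)}
    (p : ((W.any fun w => bad (ev m r r w)) || W'.any fun w => eqv (ap m) (ev r r r w)) = true) : α ∈ Y' := by
  simp only [Bool.or_eq_true, List.any_eq_true] at p
  rcases p with ⟨w, -, p⟩ | ⟨w, -, p⟩
  · exact ((in_ev h ⟨α, hα, a⟩ i i w).not_bad h p).elim
  · obtain ⟨β, hβ, b⟩ := in_ev h' i' i' i' w
    rwa [eq_of (fun c hc => (h.lg.out α hα c hc).trans (h'.lg.out β hβ c hc).symm) a b p]

theorem jobQb : H28.U4.JobQb := fun Y Y' h h' => by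
  refine ⟨fun h1 h2 α hα c => ?_, fun h1 h2 α hα c => ?_⟩
  · obtain ⟨m, a, p⟩ := of_allC c4 R_X1 lt1 (by decide) (by decide) (by decide) (h.lg.au α hα) c
    exact qb h h' hα a (in_of_hs h r1_e (by decide) (by decide) (by decide) (by decide) h1)
      (in_of_hs h' r1_e (by decide) (by decide) (by decide) (by decide) h2) p
  · obtain ⟨m, a, p⟩ := of_allC c5 R_X2 lt2 (by decide) (by decide) (by decide) (h.lg.au α hα) c
    exact qb h h' hα a (in_of_hs h r2_e (by decide) (by decide) (by decide) (by decide) h1)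
      (in_of_hs h' r2_e (by decide) (by decide) (by decide) (by decide) h2) p

end H88.U4Q
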