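/- U4 tower (row S5210), `q = 2`: the model `GL₄(2)`. -/
import Cfsg.Agent.H88.U4Qa
import Mathlib.LinearAlgebra.Matrix.GeneralLinearGroup.Card

set_option autoImplicit false
set_option linter.unusedSectionVars false
set_option linter.unusedSimpArgs false
set_option linter.unusedVariables false
set_option maxRecDepth 100000

open Subgroup H90.RF H92 Cfsg H28.U4

namespace H88.U4Q

/-- the matrix of an element -/
def mt (u : Co T4) : Matrix (Fin 4) (Fin 4) (ZMod 2) :=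
  !![1, u.a.im, u.c.im, u.d.re + u.c.re + u.c.im + (u.a.re + u.a.im) * (u.c.re + u.c.im);
     0, 1, u.b.re, u.c.re + u.a.re * u.b.re;
     0, 0, 1, u.a.re;
     0, 0, 0, 1]

theorem b_im : ∀ u : Co T4, u.b.im = 0 := by decide +kernel

theorem σ_re (x : F4) : (T4.σ x).re = x.re + x.im := by revert x; decide +kernel
theorem σ_im (x : F4) : (T4.σ x).im = x.im := by revert x; decide +kernel

theorem mt_mul (u w : Co T4) : mt (u * w) = mt u * mt w := by
  have h2 : (2 : ZMod 2) = 0 := rfl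
  have sq : ∀ x : ZMod 2, x ^ 2 = x := by decide
  ext i j
  fin_cases i <;> fin_cases j <;>
    simp [mt, Matrix.mul_apply, Fin.sum_univ_four, b_im, σ_re, σ_im]
  · ring
  · ring
  · generalize u.a.re = a0; generalize u.a.im = a1; generalize u.b.re = a2; generalize u.c.re = a3
    generalize u.c.im = a4; generalize w.a.re = b0; generalize w.a.im = b1; generalize w.b.re = b2
    generalize w.c.re = b3; generalize w.c.im = b4
    linear_combination (a0 * b3 + a0 * b4 + a1 * b4 + (a0 + a1) * b2) * h2 + b2 * sq (a0 + a1)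
  · ring
  · linear_combination (u.a.re * w.b.re) * h2
  · ring

theorem mt_one : mt 1 = 1 := by decide +kernel

/-- the embedding -/
def io : Co T4 →* GL (Fin 4) (ZMod 2) := MonoidHom.toHomUnits ⟨⟨mt, mt_one⟩, mt_mul⟩

theorem io_val (u : Co T4) : (io u : Matrix (Fin 4) (Fin 4) (ZMod 2)) = mt u := rfl

theorem mt_inj : ∀ u : Co T4, mt u = 1 → u = 1 := by decide +kernel

theorem io_inj : Function.Injective io := (injective_iff_map_eq_one _).2 fun u h =>
  mt_inj u (by rw [← io_val, h]; rfl)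

theorem card64 : Nat.card (Co T4) = 64 := by rw [Nat.card_eq_fintype_card]; decide +kernel

theorem cardG : Nat.card (GL (Fin 4) (ZMod 2)) = 20160 := by
  rw [Matrix.card_GL_field]; simp [Fin.prod_univ_four]

theorem conj_of {m m' : Matrix (Fin 4) (Fin 4) (ZMod 2)} (h1 : m * m' = 1) (h2 : m' * m = 1)
    {X : Subgroup (Co T4)} {f : Co T4 → Co T4} (h : ∀ u ∈ X, m * mt u = mt (f u) * m) :
    ∃ g : GL (Fin 4) (ZMod 2), ∀ u ∈ X, g * io u * g⁻¹ = io (f u) :=
  ⟨⟨m, m', h1, h2⟩, fun u hu => mul_inv_eq_iff_eq_mul.2 (Units.ext (h u hu))⟩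

theorem g1 : ∀ u : Co T4, u.a = 0 → !![0, 1, 0, 0; 1, 1, 0, 0; 0, 0, 1, 0; 0, 0, 0, 1] * mt u =
    mt (r1 u) * !![0, 1, 0, 0; 1, 1, 0, 0; 0, 0, 1, 0; 0, 0, 0, 1] := by decide +kernel
theorem g2 : ∀ u : Co T4, u.a = 0 → !![1, 0, 0, 0; 0, 1, 0, 0; 0, 0, 1, 1; 0, 0, 1, 0] * mt u =
    mt (r2 u) * !![1, 0, 0, 0; 0, 1, 0, 0; 0, 0, 1, 1; 0, 0, 1, 0] := by decide +kernel
theorem g3 : ∀ u : Co T4, u.b = 0 → !![1, 1, 1, 0; 0, 0, 1, 1; 0, 1, 0, 1; 0, 0, 0, 1] * mt u =
    mt u.nu1 * !![1, 1, 1, 0; 0, 0, 1, 1; 0, 1, 0, 1; 0, 0, 0, 1] := by decide +kernel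

theorem jobQm : H28.U4.JobQm := by
  refine ⟨GL (Fin 4) (ZMod 2), inferInstance, inferInstance, io, io_inj, ?_,
    conj_of (m' := !![1, 1, 0, 0; 1, 0, 0, 0; 0, 0, 1, 0; 0, 0, 0, 1]) (by decide +kernel) (by decide +kernel) g1,
    conj_of (m' := !![1, 0, 0, 0; 0, 1, 0, 0; 0, 0, 0, 1; 0, 0, 1, 1]) (by decide +kernel) (by decide +kernel) g2,
    conj_of (m' := !![1, 1, 1, 0; 0, 0, 1, 1; 0, 1, 0, 1; 0, 0, 0, 1]) (by decide +kernel) (by decide +kernel) g3⟩
  have c : Nat.card io.range = 64 := by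
    rw [← card64]; exact (Nat.card_congr (MonoidHom.ofInjective io_inj).toEquiv).symm
  have i := io.range.card_mul_index
  rw [c, cardG] at i
  have j : ¬ 2 ∣ io.range.index := by omega
  exact ⟨(IsPGroup.of_card (n := 6) c).toSylow j, rfl⟩

end H88.U4Q
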