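import Cfsg.Agent.H36.O84Spec

/-! Tower O84, job CNT: counting a subgroup of `N(T)` through its action on the torus. -/

set_option autoImplicit false

namespace H88.O84Cnt

open Matrix H36.O84

variable {Γ : Type*} [Group Γ] {τ : Multiplicative V →* Γ}

theorem act_unique (inj : Function.Injective τ) {g : Γ} {M M' : M4} (h : Act τ g M)
    (h' : Act τ g M') : M = M' := by
  have k : ∀ a : V, M *ᵥ a = M' *ᵥ a := fun a =>
    Multiplicative.ofAdd.injective (inj ((h a).symm.trans (h' a)))
  apply Matrix.toLin'.injective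
  exact LinearMap.ext fun a => by rw [Matrix.toLin'_apply, Matrix.toLin'_apply, k]

theorem act_one : Act τ 1 1 := fun a => by rw [one_mul, inv_one, mul_one, Matrix.one_mulVec]

theorem act_mul {g g' : Γ} {M M' : M4} (h : Act τ g M) (h' : Act τ g' M') :
    Act τ (g * g') (M * M') := fun a => by
  rw [← Matrix.mulVec_mulVec, ← h, ← h']
  group

theorem act_of_mem {g : Γ} (hg : g ∈ τ.range) : Act τ g 1 := fun a => by
  obtain ⟨b, rfl⟩ := hg
  rw [Matrix.one_mulVec, ← map_mul, mul_comm, map_mul, mul_inv_cancel_right]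

theorem exists_act (inj : Function.Injective τ) {g : Γ}
    (hg : g ∈ Subgroup.normalizer (τ.range : Set Γ)) : ∃ M, Act τ g M := by
  have h : ∀ a : V, ∃ b : V,
      g * τ (Multiplicative.ofAdd a) * g⁻¹ = τ (Multiplicative.ofAdd b) := fun a => by
    obtain ⟨b, hb⟩ := (Subgroup.mem_normalizer_iff.1 hg _).1 (⟨Multiplicative.ofAdd a, rfl⟩ :
      τ (Multiplicative.ofAdd a) ∈ τ.range)
    exact ⟨b.toAdd, hb.symm⟩
  choose φ hφ using h
  have add : ∀ a b, φ (a + b) = φ a + φ b := fun a b => by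
    apply Multiplicative.ofAdd.injective
    apply inj
    rw [ofAdd_add, map_mul, ← hφ, ← hφ, ← hφ, ofAdd_add, map_mul]
    group
  refine ⟨LinearMap.toMatrix' ((AddMonoidHom.mk' φ add).toZModLinearMap 5), fun a => ?_⟩
  rw [LinearMap.toMatrix'_mulVec]
  exact hφ a

theorem card_range (inj : Function.Injective τ) : Nat.card τ.range = 625 := by
  rw [← Nat.card_congr (MonoidHom.ofInjective inj).toEquiv, Nat.card_congr Multiplicative.toAdd,
    Nat.card_fun, Nat.card_zmod, Nat.card_eq_fintype_card, Fintype.card_fin]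
  norm_num

theorem cnt (S : Sys Γ) : CNT S := by
  intro X hT hN
  have h : ∀ x : X, ∃ M, Act S.τ (x : Γ) M := fun x => exists_act S.inj (hN x.2)
  choose m hm using h
  let f : X →* M4 :=
    { toFun := m
      map_one' := act_unique S.inj (hm 1) act_one
      map_mul' := fun x y => act_unique S.inj (hm (x * y)) (act_mul (hm x) (hm y)) }
  have hk : f.toHomUnits.ker = S.T.subgroupOf X := by
    ext x
    rw [MonoidHom.mem_ker, Subgroup.mem_subgroupOf, Units.ext_iff, MonoidHom.coe_toHomUnits,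
      Units.val_one]
    exact ⟨fun e => S.cT _ (e ▸ hm x), fun e => act_unique S.inj (hm x) (act_of_mem e)⟩
  have hs : {M : M4 | ∃ g ∈ X, Act S.τ g M} = Units.val '' (f.toHomUnits.range : Set M4ˣ) := by
    ext M
    constructor
    · rintro ⟨g, hg, e⟩
      exact ⟨_, ⟨⟨g, hg⟩, rfl⟩, act_unique S.inj (hm ⟨g, hg⟩) e⟩
    · rintro ⟨_, ⟨x, rfl⟩, rfl⟩
      exact ⟨x, x.2, hm x⟩
  rw [hs, Set.ncard_image_of_injective _ Units.val_injective, ← Nat.card_coe_set_eq,
    ← f.toHomUnits.ker.card_mul_index, Subgroup.index_ker, hk,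
    Nat.card_congr (Subgroup.subgroupOfEquivOfLe hT).toEquiv]
  exact congrArg₂ (· * ·) (card_range S.inj) rfl

/-- Job CNT of the tower O84. -/
theorem jobCNT : JobCNT := fun _ _ _ S => cnt S

end H88.O84Cnt
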