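import Cfsg.Agent.H53.SimXASpec

/-! Tower SIM (S3694), slot XA-A1a: an invariant idempotent. -/

set_option autoImplicit false

namespace H88.XAA1a

open Subgroup Cfsg H98 Matrix H0.Sim H53.XA

theorem job : JA1a := by
  intro th0 rp red pt ns sw ncf n F _ _ u q p Θ H Q E g e x he hi e0 e1 iv
  have c := x.toCf.toCf0
  have fq : Fq F u q := c.par.card
  obtain ⟨hE, -, -, ⟨y, hy, hys⟩, -, -⟩ := rp n F u q p Θ H Q E g x
  obtain ⟨hm, h1, -, -⟩ := red n F u q E fq hE
  obtain ⟨hi', -, g1, g2, -, -⟩ := pt n F u q e fq hi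
  have hH : H ≤ Cz u q e := fun h hh => ⟨c.HG hh, by
    have k : (h : Mt n F) * e * ((h⁻¹ : GL (Fin n) F) : Mt n F) = e := Cf0.st c iv hh e rfl
    conv_rhs => rw [← k, mul_assoc, Units.inv_mul, mul_one]⟩
  have nsc : ¬ Sc e := by
    rintro ⟨a, rfl⟩
    have k := hi.sq
    rw [← map_mul] at k
    have i : Fin n := ⟨0, by have := c.par.two; omega⟩
    have k2 : a * a = a := by simpa using congrFun (congrFun k i) i
    rcases eq_zero_or_one_of_sq_eq_self (by rw [sq, k2] : a ^ 2 = a) with rfl | rfl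
    · exact e0 (map_zero _)
    · exact e1 (map_one _)
  have key : ∀ X : Set (Mt n F), Iv Θ X → e ∈ X → (∀ m ∈ X, m ∈ Sp E) →
      ∀ s ∈ Sg n F u q, St s X → s ∈ H := fun X hX h2 h3 =>
    c.mp X hX (ns n F u q X c.par ⟨y, hE.le hy, hys, fun m hm' =>
      (hm _ (Submodule.subset_span ⟨y, hy, rfl⟩) m (h3 m hm')).2⟩ ⟨e, h2, nsc⟩)
  have k1 : ∀ s ∈ Sg n F u q, s ∈ Cz u q e → s ∈ H := fun s hs h =>
    key {e} iv rfl (by rintro _ rfl; exact he) s hs (by
      rintro _ rfl
      show _ = _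
      rw [h.2, mul_assoc, Units.mul_inv, mul_one])
  have z1 : e * (1 - e) = 0 := by rw [mul_sub, mul_one, hi.sq, sub_self]
  have z2 : (1 - e) * e = 0 := by rw [sub_mul, one_mul, hi.sq, sub_self]
  refine ⟨hH, fun hr => ?_, ncf n F u q p Θ H Q E e c hi (c.QH.trans hH)
    fun s hs => k1 s hs.1 (g1 hs.2), ncf n F u q p Θ H Q E (1 - e) c hi' (fun s hs => ?_)
    fun s hs => k1 s hs.1 (g2 hs.2)⟩
  · obtain ⟨s, hs, s1, s2, -⟩ := sw n F u q e (1 - e) fq hi hi' z1 z2 hr
    have hs' : s ∈ H := by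
      refine key {e, 1 - e} (fun j hj m hm' => ?_) (Or.inl rfl) ?_ s hs ?_
      · have t : th j e = e := iv j hj e rfl
        obtain ⟨-, ta, -, t1, -⟩ := th0 n F u q j fq (c.ok j hj)
        rcases hm' with rfl | rfl
        · exact Or.inl t
        · refine Or.inr (eq_sub_of_add_eq ?_)
          have := ta (1 - e) e
          rw [sub_add_cancel, t1, t] at this
          exact this.symm
      · rintro m (rfl | rfl)
        · exact he
        · exact sub_mem h1 he
      · rintro m (rfl | rfl)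
        · exact Or.inr s1
        · exact Or.inl s2
    rw [(hH hs').2, mul_assoc, Units.mul_inv, mul_one] at s1
    exact e0 (by rw [← z1, ← s1, hi.sq])
  · have k := hH (c.QH hs)
    exact ⟨k.1, by rw [mul_sub, sub_mul, mul_one, one_mul, k.2]⟩

end H88.XAA1a
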