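/- AH tower (row S4162): a fixed point free element of prime order centralises the abelian subgroups of coprime
order that it normalises. -/
import Cfsg.Agent.H91.AHSpec

set_option autoImplicit false

open H33.Solv Subgroup MulAction H91.AH

namespace H88.AH

theorem jobFRB : JobFRB := fun H V _ _ _ _ _ cop faith z hz hf A hA hc hn a ha => by
  classical
  have comm : ∀ a ∈ A, ∀ b ∈ A, a * b = b * a := fun a ha b hb => setLike_mul_comm ha hb
  have nz : ∀ a ∈ A, z * a * z⁻¹ ∈ A := fun a ha => (mem_normalizer_iff.1 hn a).1 ha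
  have mA : ∀ a ∈ A, a * z * a⁻¹ * z⁻¹ ∈ A := fun a ha => by
    rw [mul_assoc a, mul_assoc a]; exact mul_mem ha (nz _ (inv_mem ha))
  have mul : ∀ a ∈ A, ∀ b ∈ A, a * z * a⁻¹ * z⁻¹ * (b * z * b⁻¹ * z⁻¹) = a * b * z * (a * b)⁻¹ * z⁻¹ :=
    fun a ha b hb => by
      calc _ = a * (z * a⁻¹ * z⁻¹ * (b * z * b⁻¹ * z⁻¹)) := by group
        _ = a * (b * z * b⁻¹ * z⁻¹ * (z * a⁻¹ * z⁻¹)) := by rw [comm _ (nz _ (inv_mem ha)) _ (mA b hb)]
        _ = _ := by group
  let B : Subgroup H :=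
    { carrier := {b | ∃ a ∈ A, b = a * z * a⁻¹ * z⁻¹}
      one_mem' := ⟨1, one_mem _, by group⟩
      mul_mem' := fun ⟨a, ha, e⟩ ⟨b, hb, f⟩ => ⟨a * b, mul_mem ha hb, by rw [e, f, mul a ha b hb]⟩
      inv_mem' := fun ⟨a, ha, e⟩ => ⟨a⁻¹, inv_mem ha, inv_eq_of_mul_eq_one_right (by
        rw [e, mul a ha _ (inv_mem ha)]; group)⟩ }
  have nB : ∀ j : ℕ, ∀ b ∈ B, z ^ j * b * (z ^ j)⁻¹ ∈ B := fun j b hb => by
    induction j with
    | zero => simpa using hb
    | succ j ih =>
      obtain ⟨c, hc, e⟩ := ih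
      exact ⟨z * c * z⁻¹, nz c hc, by
        rw [show z ^ (j + 1) * b * (z ^ (j + 1))⁻¹ = z * (z ^ j * b * (z ^ j)⁻¹) * z⁻¹ by group, e]; group⟩
  have tr : ∀ b ∈ B, Commute b z → b = 1 := fun b ⟨c, hc', e⟩ h => by
    have h1 : b ^ orderOf z = 1 := by
      have := h.mul_pow (orderOf z)
      rwa [show b * z = c * z * c⁻¹ by rw [e]; group, conj_pow, pow_orderOf_eq_one, mul_one, mul_inv_cancel,
        mul_one, eq_comm] at this
    have h2 := A.orderOf_dvd_natCard (e ▸ mA c hc' : b ∈ A)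
    exact orderOf_eq_one_iff.1 (Nat.eq_one_of_dvd_coprimes hc h2 (orderOf_dvd_of_pow_eq_one h1))
  have := Fintype.ofFinite B
  have N : ∀ w : V, ∑ j ∈ Finset.range (orderOf z), z ^ j • w = 0 := fun w => by
    rw [← AddSubgroup.mem_bot, ← hf, mem_fix, Finset.smul_sum]
    have := Finset.sum_range_succ' (fun j => z ^ j • w) (orderOf z)
    rw [Finset.sum_range_succ, pow_orderOf_eq_one, pow_zero, add_left_inj] at this
    rw [this]
    exact Finset.sum_congr rfl fun j _ => by rw [pow_succ', mul_smul]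
  have key : ∀ v : V, ∑ b : B, (b : H) • v = Nat.card B • v := fun v => by
    have e : ∑ j ∈ Finset.range (orderOf z),
        (∑ b : B, ((b : H) * z ^ j) • v - ∑ b : B, ((b : H) * z ^ j * (b : H)⁻¹) • v) = 0 := by
      rw [Finset.sum_sub_distrib, Finset.sum_comm, Finset.sum_comm (s := Finset.range _)]
      simp only [mul_smul, ← Finset.smul_sum, N, smul_zero, Finset.sum_const_zero, sub_self]
    rw [Finset.sum_eq_single 0 (fun j hj j0 => ?_) fun h => absurd (Finset.mem_range.2 hz.pos) h] at e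
    · simpa [sub_eq_zero] using e
    · rw [sub_eq_zero]
      let f : B → B := fun c => ⟨c * (z ^ j * (c : H)⁻¹ * (z ^ j)⁻¹), mul_mem c.2 (nB j _ (inv_mem c.2))⟩
      have inj : Function.Injective f := fun c d h => by
        have h1 : (c : H) * (z ^ j * (c : H)⁻¹ * (z ^ j)⁻¹) = d * (z ^ j * (d : H)⁻¹ * (z ^ j)⁻¹) :=
          congrArg Subtype.val h
        have h2 : Commute ((d : H)⁻¹ * c) (z ^ j) := by
          calc (d : H)⁻¹ * c * z ^ j = (d : H)⁻¹ * (c * (z ^ j * (c : H)⁻¹ * (z ^ j)⁻¹)) * z ^ j * c := by group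
            _ = _ := by rw [h1]; group
        obtain ⟨m, hm⟩ := exists_pow_eq_self_of_coprime (x := z) (n := j)
          ((Nat.coprime_of_lt_prime j0 (Finset.mem_range.1 hj) hz).symm)
        exact Subtype.ext (inv_mul_eq_one.1 (tr _ (mul_mem (inv_mem d.2) c.2) (hm ▸ h2.pow_right m))).symm
      exact (Fintype.sum_bijective f (Finite.injective_iff_bijective.1 inj) _ _ fun c => by
        simp only [f]; congr 1; group).symm
  have hb : a * z * a⁻¹ * z⁻¹ ∈ B := ⟨a, ha, rfl⟩
  have := faith (a * z * a⁻¹ * z⁻¹) fun v =>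
    (nsmulCoprime (cop.coprime_dvd_left (card_subgroup_dvd_card B)).symm).injective (by
      change Nat.card B • _ = Nat.card B • v
      rw [← smul_comm, ← key, Finset.smul_sum]
      exact Fintype.sum_bijective (fun c => (⟨_, hb⟩ : B) * c) (Group.mulLeft_bijective _) _ _ fun c =>
        (mul_smul _ (c : H) v).symm)
  exact (mul_inv_eq_iff_eq_mul.1 (mul_inv_eq_one.1 this)).symm

end H88.AH
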