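/- AH tower (row S4162): the module of order 25. -/
import Cfsg.Agent.H91.AHSpec
import Cfsg.Agent.H33.SolvC1

set_option autoImplicit false

open H33.Solv Subgroup MulAction H91.AH

namespace H88.AH

theorem card3 {H : Type} [Group H] [Finite H] (hr : Real H) (h24 : Nat.card H = 24) {t : H} (ht : orderOf t = 2)
    (hc : ∀ g, Commute t g) : {x : H | x ^ 3 = 1}.ncard ≤ 3 := by
  have : Fact (Nat.Prime 3) := ⟨Nat.prime_three⟩
  obtain ⟨z, hz⟩ := exists_prime_orderOf_dvd_card' (G := H) 3 (by rw [h24]; norm_num)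
  have cz : Nat.card (zpowers z) = 3 := by rw [Nat.card_zpowers, hz]
  let P : Sylow 3 H := (IsPGroup.of_card (n := 1) cz).toSylow (by
    have := (zpowers z).card_mul_index
    rw [cz, h24] at this
    omega)
  obtain ⟨s, hs⟩ := isConj_iff.1 (hr z)
  have mN : ∀ g : H, g * z * g⁻¹ ∈ zpowers z → g ∈ normalizer (zpowers z : Set H) := fun g hg =>
    mem_normalizer_fintype fun n ⟨k, hk⟩ => by
      rw [← hk, ← conj_zpow]; exact zpow_mem hg k
  have lt : centralizer ({z} : Set H) < normalizer (zpowers z : Set H) :=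
    lt_of_le_of_ne (fun g hg => mN g (by rw [(mem_cent.1 hg).eq, mul_inv_cancel_right]; exact mem_zpowers z))
      fun e => by
        have k : s ∈ centralizer ({z} : Set H) := e ▸ mN s (hs ▸ inv_mem (mem_zpowers z))
        rw [(mem_cent.1 k).eq, mul_inv_cancel_right] at hs
        have := orderOf_dvd_of_pow_eq_one (x := z) (n := 2) (by rw [pow_two]; exact mul_eq_one_iff_eq_inv.2 hs)
        rw [hz] at this
        omega
  have d2 : 2 ∣ Nat.card (centralizer ({z} : Set H)) := ht ▸ orderOf_dvd_cc (hc z)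
  have d3 : 3 ∣ Nat.card (centralizer ({z} : Set H)) := hz ▸ orderOf_dvd_cc (Commute.refl z)
  obtain ⟨m, hm⟩ := card_dvd_of_le lt.le
  have ne : Nat.card (centralizer ({z} : Set H)) ≠ Nat.card (normalizer (zpowers z : Set H)) := fun e =>
    lt.ne (eq_of_le_of_card_ge lt.le e.ge)
  have p1 : 0 < Nat.card (centralizer ({z} : Set H)) := Nat.card_pos
  have p2 : 0 < Nat.card (normalizer (zpowers z : Set H)) := Nat.card_pos
  have m2 : 2 ≤ m := by
    rcases m with _ | _ | m <;> omega
  have l12 : 12 ≤ Nat.card (normalizer (zpowers z : Set H)) := by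
    have : 6 ≤ Nat.card (centralizer ({z} : Set H)) := by omega
    rw [hm]; nlinarith
  have n1 := card_sylow_modEq_one 3 H
  have n2 : Nat.card (Sylow 3 H) = (normalizer (zpowers z : Set H)).index := P.card_eq_index_normalizer
  have n3 := (normalizer (zpowers z : Set H)).card_mul_index
  rw [← n2, h24] at n3
  have n4 : Nat.card (Sylow 3 H) ≤ 2 := by nlinarith
  have : Subsingleton (Sylow 3 H) := Finite.card_le_one_iff_subsingleton.1 (by unfold Nat.ModEq at n1; omega)
  refine (Set.ncard_le_ncard (t := (zpowers z : Set H)) fun x hx => ?_).trans cz.le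
  obtain ⟨Q, hQ⟩ := (show IsPGroup 3 (zpowers x) from fun ⟨_, k, rfl⟩ => ⟨1, Subtype.ext (by
    change (x ^ k) ^ 3 ^ 1 = 1
    rw [pow_one, ← zpow_natCast, ← zpow_mul, mul_comm, zpow_mul, zpow_natCast, hx, one_zpow])⟩).exists_le_sylow
  rw [Subsingleton.elim Q P] at hQ
  exact hQ (mem_zpowers x)

theorem two_ne : (2 : ZMod 5) ≠ 0 := by decide
theorem ord2 : orderOf (2 : ZMod 5) = 4 := orderOf_eq_prime_pow (p := 2) (n := 1) (by decide) (by decide)

theorem jobV25 : JobV25 := fun rd v5 p _ H V _ _ _ _ _ _ h hp hV => by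
  subst hp
  have sr : ∀ g : H, g ≠ 1 → ∀ w : V, g • w = w → w = 0 := fun g hg w e => by
    by_contra hw
    obtain ⟨k, hk, pk⟩ := exists_prime_pow hg
    obtain ⟨n, hn⟩ := card_pow (p := 5) (fix V k)
    have d : 5 ^ n ∣ 5 ^ 2 := by
      rw [← hn, show 5 ^ 2 = Nat.card V from hV.symm]; exact AddSubgroup.card_addSubgroup_dvd_card _
    have := (Nat.pow_dvd_pow_iff_le_right (by norm_num)).1 d
    interval_cases n
    · exact hw (AddSubgroup.mem_bot.1 (AddSubgroup.eq_bot_of_card_eq _ hn ▸ mem_fix.2 (fix_zpow e hk)))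
    · exact v5 5 H V h rfl k (.inr pk) hn
    · have := AddSubgroup.eq_top_of_card_eq _ (hn.trans hV.symm)
      rw [h.faith k fun v => mem_fix.1 (this ▸ AddSubgroup.mem_top v), orderOf_one] at pk
      exact Nat.not_prime_one pk
  have d24 : Nat.card H ∣ 24 := by simpa [hV] using card_dvd_pred sr
  have neg : ∀ t : H, t ^ 2 = 1 → t ≠ 1 → ∀ w : V, t • w = -w := fun t h2 h1 w =>
    eq_neg_of_add_eq_zero_left (sr t h1 _ (by rw [smul_add, ← mul_smul, ← pow_two, h2, one_smul, add_comm]))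
  have := h.nt
  obtain ⟨v, hv⟩ := exists_ne (0 : V)
  obtain ⟨g, hg, -⟩ := h.ep (one_smul H v) (a := 2) two_ne
  have o4 : 4 ∣ orderOf g := by
    have e := pow_smul_eig hg (orderOf g)
    rw [pow_orderOf_eq_one, one_smul, eq_comm, ← sub_eq_zero] at e
    nth_rewrite 2 [← one_smul (ZMod 5) v] at e
    rw [← sub_smul, smul_eq_zero_iff_left hv, sub_eq_zero, ← orderOf_dvd_iff_pow_eq_one] at e
    exact ord2 ▸ e
  have o4' := orderOf_pow_orderOf_div (orderOf_pos g).ne' o4
  generalize g ^ (orderOf g / 4) = y at o4'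
  have d8 := rd H h.ratH y
  rw [o4', show 4 * Nat.totient 4 = 8 by decide] at d8
  have ot : orderOf (y ^ 2) = 2 := by rw [orderOf_pow, o4']; decide
  generalize y ^ 2 = t at ot
  have t1 : t ≠ 1 := fun e => by rw [e, orderOf_one] at ot; omega
  have t2 : t ^ 2 = 1 := ot ▸ pow_orderOf_eq_one t
  have uq : ∀ x : H, x ^ 2 = 1 → x = 1 ∨ x = t := fun x hx => or_iff_not_imp_left.2 fun x1 =>
    mul_inv_eq_one.1 (h.faith _ fun w => by rw [mul_smul, neg x hx x1, ← neg t t2 t1, smul_inv_smul])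
  have ct : ∀ x : H, Commute t x := fun x =>
    ((uq (x * t * x⁻¹) (by rw [conj_pow, t2]; group)).elim (fun e => absurd (conj_eq_one_iff.1 e) t1)
      fun e => mul_inv_eq_iff_eq_mul.1 e : x * t = t * x).symm
  have c2 : {x : H | x ^ 2 = 1}.ncard ≤ 2 :=
    (Set.ncard_le_ncard (t := {1, t}) fun x hx => uq x hx).trans (Set.ncard_insert_le _ _ |>.trans (by simp))
  have c3 : 8 * {x : H | x ^ 3 = 1}.ncard ≤ Nat.card H := by
    have : Nat.card H = 8 ∨ Nat.card H = 24 := by
      have := Nat.le_of_dvd (by norm_num) d24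
      obtain ⟨k, hk⟩ := d8
      rw [hk] at d24 this ⊢
      have : k ≤ 3 := by omega
      interval_cases k <;> omega
    rcases this with e | e
    · have : {x : H | x ^ 3 = 1}.ncard ≤ 1 :=
        (Set.ncard_le_ncard (t := {1}) fun x hx => orderOf_eq_one_iff.1 (Nat.eq_one_of_dvd_coprimes
          (show Nat.Coprime 3 8 by decide) (orderOf_dvd_of_pow_eq_one hx) (e ▸ orderOf_dvd_natCard x))).trans
          (by simp)
      omega
    · have := card3 h.ratH.real e ot ct
      omega
  have six : ∀ x : H, ¬ 4 ∣ orderOf x → x ^ 6 = 1 := fun x hx => by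
    rw [← orderOf_dvd_iff_pow_eq_one]
    have d := (orderOf_dvd_natCard x).trans d24
    have := Nat.le_of_dvd (by norm_num) d
    generalize orderOf x = n at *
    interval_cases n <;> omega
  have bad : {x : H | 4 ∣ orderOf x}ᶜ.ncard ≤ ({x : H | x ^ 3 = 1} ×ˢ {x : H | x ^ 2 = 1}).ncard :=
    Set.ncard_le_ncard_of_injOn (fun x => (x ^ 4, x ^ 3))
      (fun x hx => ⟨by
        change (x ^ 4) ^ 3 = 1
        rw [← pow_mul, show 4 * 3 = 6 * 2 from rfl, pow_mul, six x hx, one_pow], by
        change (x ^ 3) ^ 2 = 1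
        rw [← pow_mul]; exact six x hx⟩)
      fun x _ y _ e => by
        have e1 : x ^ 4 = y ^ 4 := congrArg Prod.fst e
        have e2 : x ^ 3 = y ^ 3 := congrArg Prod.snd e
        rwa [pow_succ, pow_succ y, e2, mul_right_inj] at e1
  rw [Set.ncard_prod] at bad
  have tot := Set.ncard_add_ncard_compl {x : H | 4 ∣ orderOf x}
  change 3 * Nat.card H ≤ 4 * {x : H | 4 ∣ orderOf x}.ncard
  nlinarith

end H88.AH
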