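import Cfsg.Agent.H20.C3Spec

/-! C3 tower (row S5227): the certificates, words in the automizer of `A`. -/

set_option autoImplicit false

namespace H88.C3C

open Subgroup H90.RF H20.C3

/-- a basis of `A` -/
def bs : List Co := [xc 1, xe 1, xf 1, xg 1, xh 1, xz 1]

theorem bs_A : ∀ x ∈ bs, x ∈ sA := by
  simp [bs, mem_sA, xc, xe, xf, xg, xh, xz]

/-- multiplicative on `A` -/
def ML (f : Co → Co) : Prop := ∀ u ∈ sA, ∀ w ∈ sA, f (u * w) = f u * f w

theorem ext6 {f g : Co → Co} (hf : ML f) (hg : ML g) (h : ∀ x ∈ bs, f x = g x) :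
    ∀ u ∈ sA, f u = g u := by
  have one : ∀ {f : Co → Co}, ML f → f 1 = 1 := fun {f} hf =>
    mul_eq_left.1 ((hf 1 (one_mem _) 1 (one_mem _)).symm.trans (by rw [mul_one]))
  have mul : ∀ {u w : Co}, (u ∈ sA ∧ f u = g u) → (w ∈ sA ∧ f w = g w) →
      u * w ∈ sA ∧ f (u * w) = g (u * w) := fun hu hw =>
    ⟨mul_mem hu.1 hw.1, by rw [hf _ hu.1 _ hw.1, hg _ hu.1 _ hw.1, hu.2, hw.2]⟩
  have rt : ∀ r : F3 → Co, r 1 ∈ bs → r 0 = 1 → r (-1) = r 1 * r 1 → ∀ t, r t ∈ sA ∧ f (r t) = g (r t) :=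
    fun r h1 h0 h2 t => by
      rcases tri t with rfl | rfl | rfl
      · rw [h0, one hf, one hg]; exact ⟨one_mem _, rfl⟩
      · exact ⟨bs_A _ h1, h _ h1⟩
      · rw [h2]; exact mul ⟨bs_A _ h1, h _ h1⟩ ⟨bs_A _ h1, h _ h1⟩
  intro u hu
  have e : u = xc u.c * xe u.e * xf u.f * xg u.g * xh u.h * xz u.z := by
    ext <;> simp [xc, xe, xf, xg, xh, xz, hu.1, hu.2.1, hu.2.2]
  rw [e]
  exact (mul (mul (mul (mul (mul (rt xc (by decide) rfl (by decide) _) (rt xe (by decide) rfl (by decide) _))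
    (rt xf (by decide) rfl (by decide) _)) (rt xg (by decide) rfl (by decide) _))
    (rt xh (by decide) rfl (by decide) _)) (rt xz (by decide) rfl (by decide) _)).2

theorem cj_A (s : Co) {u : Co} (hu : u ∈ sA) : cj s u ∈ sA := by
  refine ⟨?_, ?_, ?_⟩ <;> simp [cj, hu.1, hu.2.1, hu.2.2]

theorem cj_uu (s : Co) {u : Co} (hu : u ∈ sA) : s * u * s⁻¹ = cj (uu s.a s.b s.d) u := by
  ext <;> simp [cj, uu, hu.1, hu.2.1, hu.2.2] <;> ring

theorem cj_mul (s u w : Co) : cj s (u * w) = cj s u * cj s w := by simp only [cj]; group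

/-- a column -/
structure W6 where
  (c e f g h z : ℕ)
  deriving DecidableEq

/-- a matrix, given by its columns -/
structure Mx where
  (c e f g h z : W6)
  deriving DecidableEq

/-- the coordinates -/
def col (u : Co) : W6 := ⟨u.c.val, u.e.val, u.f.val, u.g.val, u.h.val, u.z.val⟩

/-- the matrix of a map -/
def mat (f : Co → Co) : Mx :=
  ⟨col (f (xc 1)), col (f (xe 1)), col (f (xf 1)), col (f (xg 1)), col (f (xh 1)), col (f (xz 1))⟩

/-- one coordinate of the image of a column -/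
def dot (m : Mx) (p : W6 → ℕ) (v : W6) : ℕ :=
  (p m.c * v.c + p m.e * v.e + p m.f * v.f + p m.g * v.g + p m.h * v.h + p m.z * v.z) % 3

/-- the image of a column -/
def ap (m : Mx) (v : W6) : W6 :=
  ⟨dot m W6.c v, dot m W6.e v, dot m W6.f v, dot m W6.g v, dot m W6.h v, dot m W6.z v⟩

/-- the product -/
def mm (m n : Mx) : Mx := ⟨ap m n.c, ap m n.e, ap m n.f, ap m n.g, ap m n.h, ap m n.z⟩

/-- one coordinate of the image of an element -/
def dt (m : Mx) (p : W6 → ℕ) (u : Co) : F3 :=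
  p m.c * u.c + p m.e * u.e + p m.f * u.f + p m.g * u.g + p m.h * u.h + p m.z * u.z

/-- the map of a matrix -/
def lin (m : Mx) (u : Co) : Co :=
  vv (dt m W6.c u) (dt m W6.e u) (dt m W6.f u) (dt m W6.g u) (dt m W6.h u) (dt m W6.z u)

theorem dt_mm (m n : Mx) (p : W6 → ℕ) (hp : ∀ v, p (ap m v) = dot m p v) (u : Co) :
    dt (mm m n) p u = dt m p (lin n u) := by
  simp only [dt, mm, hp, dot, lin, vv, ZMod.natCast_mod, Nat.cast_add, Nat.cast_mul]
  ring

theorem lin_mm (m n : Mx) (u : Co) : lin (mm m n) u = lin m (lin n u) := by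
  rw [lin, dt_mm _ _ W6.c fun _ => rfl, dt_mm _ _ W6.e fun _ => rfl, dt_mm _ _ W6.f fun _ => rfl,
    dt_mm _ _ W6.g fun _ => rfl, dt_mm _ _ W6.h fun _ => rfl, dt_mm _ _ W6.z fun _ => rfl]
  rfl

theorem ml_lin (m : Mx) : ML (lin m) := fun u hu w hw => by
  ext <;> simp [lin, dt, vv, hu.1, hu.2.1, hu.2.2] <;> ring

theorem lin_mat {f : Co → Co} (hf : ML f) (h : ∀ u ∈ sA, f u ∈ sA) : ∀ u ∈ sA, f u = lin (mat f) u := by
  refine ext6 hf (ml_lin _) fun x hx => ?_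
  have := h x (bs_A x hx)
  simp only [bs, List.mem_cons, List.not_mem_nil, or_false] at hx
  rcases hx with rfl | rfl | rfl | rfl | rfl | rfl <;> ext <;>
    first
    | exact this.1
    | exact this.2.1
    | exact this.2.2
    | simp [lin, dt, vv, mat, col, xc, xe, xf, xg, xh, xz]

theorem lin_cj (s : Co) : ∀ u ∈ sA, cj s u = lin (mat (cj s)) u :=
  lin_mat (fun u _ w _ => cj_mul s u w) fun _ => cj_A s

/-- the cube -/
def cu (m : Mx) : Mx := mm m (mm m m)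

/-- the product of a word -/
def pr (w : List (Co → Co)) : Mx := w.foldr (fun f m => mm (mat f) m) (mat id)

theorem lin_id : ∀ u ∈ sA, lin (mat id) u = u := fun u hu =>
  (lin_mat (f := id) (fun _ _ _ _ => rfl) (fun _ h => h) u hu).symm

variable {YA : Subgroup (Equiv.Perm Co)} (C : Ce YA)
include C

theorem in_pr {w : List (Co → Co)} (h : ∀ f ∈ w, In sA YA f) : In sA YA (lin (pr w)) := by
  induction w with
  | nil => exact ⟨1, one_mem _, fun u hu => (lin_id u hu).symm⟩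
  | cons f w ih =>
    obtain ⟨y, y1, y2⟩ := h f List.mem_cons_self
    obtain ⟨x, x1, x2⟩ := ih fun g hg => h g (List.mem_cons_of_mem _ hg)
    have a := C.lA.au y y1
    have e : mat f = mat y := by
      simp only [mat, y2 _ (bs_A (xc 1) (by decide)), y2 _ (bs_A (xe 1) (by decide)),
        y2 _ (bs_A (xf 1) (by decide)), y2 _ (bs_A (xg 1) (by decide)), y2 _ (bs_A (xh 1) (by decide)),
        y2 _ (bs_A (xz 1) (by decide))]
    refine ⟨y * x, mul_mem y1 x1, fun u hu => ?_⟩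
    change y (x u) = lin (mm (mat f) (pr w)) u
    rw [lin_mm, ← x2 u hu, e, lin_mat a.mul a.mem _ ((C.lA.au x x1).mem u hu)]

theorem ord9 {w : List (Co → Co)} (h : ∀ f ∈ w, In sA YA f)
    (k : cu (cu (pr w)) = mat id ∧ ¬ ∀ x ∈ bs, lin (cu (pr w)) x = x) : False := by
  obtain ⟨y, y1, y2⟩ := in_pr C h
  have p : ∀ y ∈ YA, ∀ m, (∀ u ∈ sA, y u = lin m u) → ∀ u ∈ sA, (y ^ 3) u = lin (cu m) u :=
    fun y y1 m y2 u hu => by
      have a := (C.lA.au y y1).mem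
      rw [cu, lin_mm, lin_mm, ← y2 u hu, ← y2 _ (a u hu), ← y2 _ (a _ (a u hu))]; rfl
  have e := C.pelA y y1 (C.lA.ext (pow_mem y1 9) (one_mem _) fun u hu => by
    rw [show 9 = 3 * 3 from rfl, pow_mul, p _ (pow_mem y1 3) _ (p y y1 _ y2) u hu, k.1, lin_id u hu]; rfl)
  exact k.2 fun x hx => by rw [← p y y1 _ y2 x (bs_A x hx), e]; rfl

theorem in_of {w : List (Co → Co)} (h : ∀ f ∈ w, In sA YA f) {g : Co → Co} (hg : ML g)
    (hA : ∀ u ∈ sA, g u ∈ sA) (e : pr w = mat g) : In sA YA g := by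
  obtain ⟨y, y1, y2⟩ := in_pr C h
  exact ⟨y, y1, fun u hu => by rw [y2 u hu, e, lin_mat hg hA u hu]⟩

theorem mover {w : List (Co → Co)} (h : ∀ f ∈ w, In sA YA f) {X : Subgroup Co} (r : F3 → F3 → Co)
    (h1 : ∀ s ∈ X, ∃ i j, uu s.a s.b s.d = r i j) (h2 : ∀ i j, r i j ∈ X)
    (e : (∀ i j, ∃ i' j', mm (pr w) (mat (cj (r i j))) = mm (mat (cj (r i' j'))) (pr w)) ∧ ∀ d,
      ¬ ∀ x ∈ bs, lin (mm (pr w) (mat (cj (xd 1)))) x = lin (mm (mat (cj (uu 0 0 d))) (pr w)) x) :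
    ∃ α ∈ YA, Nm α X ∧ ¬ Nm α sD := by
  obtain ⟨y, y1, y2⟩ := in_pr C h
  have a := C.lA.au y y1
  have k : ∀ s t, ∀ x ∈ sA, lin (mm (pr w) (mat (cj s))) x = lin (mm (mat (cj t)) (pr w)) x ↔
      y (cj s x) = cj t (y x) := fun s t x hx => by
    rw [lin_mm, lin_mm, ← lin_cj s x hx, ← y2 x hx, ← lin_cj t _ (a.mem x hx), y2 _ (cj_A s hx)]
  refine ⟨y, y1, fun s hs => ?_, fun hn => ?_⟩
  · obtain ⟨i, j, e1⟩ := h1 s hs
    obtain ⟨i', j', e'⟩ := e.1 i j
    refine ⟨r i' j', h2 _ _, fun u hu => ?_⟩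
    rw [cj_uu s hu, e1]
    exact (k _ _ u hu).1 (by rw [e'])
  · obtain ⟨t, t1, t2⟩ := hn (xd 1) ⟨rfl, rfl⟩
    refine e.2 t.d fun x hx => (k _ _ x (bs_A x hx)).2 ((t2 x (bs_A x hx)).trans ?_)
    rw [cj_uu t (a.mem x (bs_A x hx)), t1.1, t1.2]

omit C

/-- the letters `a A b B n N u U v V` -/
def lt (n u : Co → Co) : ℕ → List (Co → Co)
  | 0 => [cj (xa 1)] | 1 => [cj (xa (-1))] | 2 => [cj (xb 1)] | 3 => [cj (xb (-1))]
  | 4 => [n] | 5 => [n, n, n] | 6 => [u] | 7 => [u, u, u] | 8 => [Co.nu2] | _ => [Co.nu2, Co.nu2, Co.nu2]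

/-- a word, the last letter is applied first -/
def wd (n u : Co → Co) (l : List ℕ) : List (Co → Co) := l.flatMap (lt n u)

include C in
theorem in_wd {n u : Co → Co} (hn : In sA YA n) (hu : In sA YA u) {l : List ℕ}
    (hv : In sA YA Co.nu2 ∨ ∀ i ∈ l, i < 8) : ∀ f ∈ wd n u l, In sA YA f := by
  intro f hf
  obtain ⟨i, hi, hf⟩ := List.mem_flatMap.1 hf
  have hv' : 8 ≤ i → In sA YA Co.nu2 := fun h => hv.resolve_right fun k => absurd (k i hi) (by omega)
  match i, hf, hv' with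
  | 0, hf, _ | 1, hf, _ | 2, hf, _ | 3, hf, _ => exact List.mem_singleton.1 hf ▸ C.inn _
  | 4, hf, _ | 5, hf, _ => obtain rfl : f = n := by simpa [lt] using hf
                           exact hn
  | 6, hf, _ | 7, hf, _ => obtain rfl : f = u := by simpa [lt] using hf
                           exact hu
  | 8, hf, hv' => obtain rfl : f = Co.nu2 := by simpa [lt] using hf
                  exact hv' le_rfl
  | i + 9, hf, hv' => obtain rfl : f = Co.nu2 := by simpa [lt] using hf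
                      exact hv' (by omega)

theorem ml_nC (i j : F3) : ML (nC i j) := fun u hu w hw => by
  ext <;> simp [nC, vv, hu.1, hu.2.1, hu.2.2] <;> ring

theorem ml_inv : ML fun u => u⁻¹ := fun u hu w hw => by
  ext <;> simp [hu.1, hu.2.1, hu.2.2, hw.1, hw.2.1, hw.2.2] <;> ring

/-- the word has order nine -/
abbrev O9 (n u : Co → Co) (l : List ℕ) : Prop :=
  cu (cu (pr (wd n u l))) = mat id ∧ ¬ ∀ x ∈ bs, lin (cu (pr (wd n u l))) x = x

/-- the word normalizes `r` but not `d` -/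
abbrev Mv (n : Co → Co) (l : List ℕ) (r : F3 → F3 → Co) : Prop :=
  (∀ i j, ∃ i' j', mm (pr (wd n n l)) (mat (cj (r i j))) = mm (mat (cj (r i' j'))) (pr (wd n n l))) ∧
    ∀ d, ¬ ∀ x ∈ bs, lin (mm (pr (wd n n l)) (mat (cj (xd 1)))) x =
      lin (mm (mat (cj (uu 0 0 d))) (pr (wd n n l))) x

set_option maxRecDepth 20000

theorem c1 : ∀ j, O9 (nC 1 j) (nC 1 j) [0, 3, 4, 1, 4, 0, 5] := by decide +kernel
theorem c2 : ∀ j, O9 (nC (-1) j) (nC (-1) j) [0, 3, 4, 1, 4, 0, 4] := by decide +kernel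
theorem c3 : ∀ j, Mv (nC 0 j) [4, 1, 4, 3, 4, 1, 4, 1, 4, 2, 4] fun b d => uu 0 b d := by decide +kernel
theorem c4 : ∀ j, Mv (nC 0 j) [4, 0, 4, 3, 4, 3, 4, 1, 4, 0, 4] fun a d => uu a 0 d := by decide +kernel
theorem c5 : O9 (Co.nu1 (-1)) (Co.nu1 (-1)) [1, 3, 8, 3, 6, 8, 6] := by decide +kernel
theorem c6 : O9 (nC 0 0) (nC 0 0) [0, 8, 4, 3, 4] := by decide +kernel
theorem c7 : O9 (nC 0 1) (Co.nu1 0) [1, 4, 3, 6, 4] := by decide +kernel
theorem c8 : O9 (nC 0 (-1)) (nC 0 (-1)) [0, 8, 2, 4, 1, 4] := by decide +kernel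
theorem c9 : pr (wd (Co.nu1 1) (Co.nu1 1) [0, 6, 8, 2, 6, 8, 2, 7, 1, 8]) = mat (nC 0 1) := by
  decide +kernel
theorem c10 : pr (wd (Co.nu1 1) (Co.nu1 1) [0, 6, 1, 8, 6, 8, 2, 6, 8, 6, 1, 8, 6, 8, 6, 8]) =
    mat fun u => u⁻¹ := by
  decide +kernel

theorem jobCert : JobCert := by
  intro YA C
  refine ⟨fun i j h => ?_, fun j h => ⟨?_, ?_⟩, fun k hu hv => ⟨?_, fun j h => ?_, ?_⟩⟩
  · rcases tri i with rfl | rfl | rfl
    · rfl
    · exact (ord9 C (in_wd C h h (.inr (by decide))) (c1 j)).elim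
    · exact (ord9 C (in_wd C h h (.inr (by decide))) (c2 j)).elim
  · exact mover C (in_wd C h h (.inr (by decide))) (fun b d => uu 0 b d)
      (fun s hs => ⟨s.b, s.d, by rw [show s.a = 0 from hs]⟩) (fun _ _ => rfl) (c3 j)
  · exact mover C (in_wd C h h (.inr (by decide))) (fun a d => uu a 0 d)
      (fun s hs => ⟨s.a, s.d, by rw [show s.b = 0 from hs]⟩) (fun _ _ => rfl) (c4 j)
  · intro e
    rw [e, two] at hu
    exact ord9 C (in_wd C hu hu (.inl hv)) c5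
  · rcases tri j with rfl | rfl | rfl
    · exact (ord9 C (in_wd C h h (.inl hv)) c6).elim
    · rcases tri k with rfl | rfl | rfl
      · exact (ord9 C (in_wd C h hu (.inl hv)) c7).elim
      · exact ⟨rfl, rfl⟩
      · exact (ord9 C (in_wd C hu hu (.inl hv)) c5).elim
    · exact (ord9 C (in_wd C h h (.inl hv)) c8).elim
  · rintro rfl
    exact ⟨in_of C (in_wd C hu hu (.inl hv)) (ml_nC 0 1) (fun _ _ => ⟨rfl, rfl, rfl⟩) c9,
      in_of C (in_wd C hu hu (.inl hv)) ml_inv (fun _ => inv_mem) c10⟩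

end H88.C3C
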