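/- E7MAX (S5934): slots PU and GEN. -/
import Cfsg.Agent.H36.E7MSpec
import Cfsg.Agent.H64.Mat

set_option autoImplicit false

namespace H88.E7M
open Cfsg.Lie Module H36.E7M
open scoped commutatorElement Matrix

theorem rt_co : ∀ r < 126, ∀ i < 7, H63.certE7.rtc r i = co r i := by decide +kernel

theorem x_inv (r : ℕ) : (x r)⁻¹ = x r :=
  Subtype.ext ((H65.xU_inv r (1 : F)).trans (by rw [show (-1 : F) = 1 from rfl]; rfl))

section
variable {D : ChevalleyDatum} [H63.RS D] [H65.Tab D] {K : Type} [Field K]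

theorem keepG (r : H63.Rt D) (t : K) (j : Fin D.rank) (h : 0 ≤ H63.RS.rt r j) {v : D.Idx → K}
    (hv : v ∈ Pi.spanSubset K {i : D.Idx | 0 < H64.wt i j}) :
    D.x K r t *ᵥ v ∈ Pi.spanSubset K {i : D.Idx | 0 < H64.wt i j} := by
  rw [Pi.mem_spanSubset_iff] at hv ⊢
  intro i hi
  have e : D.x K r t *ᵥ v = (H65.X D K r t - 1) *ᵥ v + v := by
    rw [Matrix.sub_mulVec, Matrix.one_mulVec, sub_add_cancel]; rfl
  rw [e, Pi.add_apply, hv i hi, add_zero]
  show ∑ k, (H65.X D K r t - 1) i k * v k = 0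
  refine Finset.sum_eq_zero fun k _ => ?_
  by_cases hk : 0 < H64.wt k j
  · by_cases h0 : (H65.X D K r t - 1) i k = 0
    · exact mul_eq_zero_of_left h0 _
    · obtain ⟨n, -, e⟩ := H64.X_sub_one_wt r t h0
      have e2 : H64.wt i j = H64.wt k j + n * H63.RS.rt r j := by rw [e]; rfl
      exact absurd (show 0 < H64.wt i j by rw [e2]; positivity) hi
  · exact mul_eq_zero_of_right _ (hv k hk)

theorem genG (M : Subgroup (D.group K)) (h : ∀ (r : Fin D.nroots) t, H63.xG D K r t ∈ M) :
    M = ⊤ := by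
  rw [eq_top_iff]
  rintro ⟨g, hg⟩ -
  induction hg using Subgroup.closure_induction with
  | one => exact M.one_mem
  | mul a b _ _ ha hb => exact M.mul_mem ha hb
  | inv a _ ha => exact M.inv_mem ha
  | mem g hg =>
    obtain ⟨r, t, e⟩ := hg
    have e2 : (⟨g, Subgroup.subset_closure ⟨r, t, e⟩⟩ : D.group K) = H63.xG D K r t :=
      H63.val_eq_xG.1 (by rw [ChevalleyDatum.x, dif_pos r.2]; exact e)
    exact e2 ▸ h r t
end

theorem keep (j : Fin 7) {r : ℕ} (hr : r < 126) (h : 0 ≤ co r j) {v : LA}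
    (hv : v ∈ Pi.spanSubset F {i : chevE7.Idx | 0 < H64.wt i j}) :
    ρ (x r) v ∈ Pi.spanSubset F {i : chevE7.Idx | 0 < H64.wt i j} := by
  rw [ρ_apply, x_val]
  exact keepG (D := chevE7) ⟨r, hr⟩ 1 j (by rw [← rt_co r hr j j.2] at h; exact h) hv

theorem dims : ∀ j < 7, 22 ≤ ((List.range 126).filter fun r => 0 < co r j).length ∧
    ((List.range 126).filter fun r => 0 < co r j).length ≤ 111 := by decide +kernel

theorem jobPU : JobPU := fun j => by
  refine ⟨Pi.spanSubset F {i : chevE7.Idx | 0 < H64.wt i j}, fun g hg => ?_, ?_⟩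
  · induction hg using Subgroup.closure_induction'' with
    | one => intro v hv; rwa [map_one]
    | mem g hg => obtain ⟨r, h1, h2, rfl⟩ := hg; exact fun v => keep j h1 h2
    | inv_mem g hg => obtain ⟨r, h1, h2, rfl⟩ := hg; rw [x_inv]; exact fun v => keep j h1 h2
    | mul a b _ _ ha hb => intro v hv; rw [map_mul, Module.End.mul_apply]; exact ha _ (hb v hv)
  · have e : {i : chevE7.Idx | 0 < H64.wt i j}.ncard =
        ((List.range 126).filter fun r => 0 < co r j).length := by
      rw [← List.toFinset_card_of_nodup (List.nodup_range.filter _), ← Set.ncard_coe_finset]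
      refine Set.ncard_congr (fun i _ => Sum.elim (fun _ => 0) (fun r : Fin 126 => r.1) i)
        ?_ ?_ ?_
      · rintro (i | r) h
        · exact absurd h (lt_irrefl (0 : ℤ))
        · have h2 : 0 < co r j := by rw [← rt_co r r.2 j j.2]; exact h
          simp only [List.coe_toFinset, List.mem_filter, List.mem_range, decide_eq_true_eq,
            Set.mem_ofPred_eq]
          exact ⟨r.2, h2⟩
      · rintro (i | r) (i' | r') h h' e
        · exact absurd h (lt_irrefl (0 : ℤ))
        · exact absurd h (lt_irrefl (0 : ℤ))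
        · exact absurd h' (lt_irrefl (0 : ℤ))
        · exact congrArg Sum.inr (Fin.ext e)
      · intro r h
        simp only [List.coe_toFinset, List.mem_filter, List.mem_range, decide_eq_true_eq,
          Set.mem_ofPred_eq] at h
        exact ⟨Sum.inr ⟨r, h.1⟩, by have := h.2; rw [← rt_co r h.1 j j.2] at this; exact this, rfl⟩
    rw [Pi.dim_spanSubset, e]
    exact dims j j.2

def wit : List (ℕ × ℕ) := [(93, 17), (93, 18), (93, 19), (93, 20), (93, 21), (93, 22), (93, 23), (93, 24), (93, 25), (93, 26), (94, 23), (94, 24), (94, 25), (94, 26), (95, 26), (93, 27), (93, 28), (93, 29), (93, 30), (93, 31), (94, 27), (94, 28), (94, 29), (94, 30), (95, 27), (95, 28), (95, 29), (96, 27), (96, 28), (97, 27), (98, 28), (97, 29), (98, 29), (96, 30), (97, 30), (98, 30), (95, 31), (96, 31), (97, 31), (98, 31), (94, 32), (95, 32), (96, 32), (97, 32), (98, 32), (99, 30), (99, 31), (100, 31), (101, 31), (102, 31), (99, 32), (100, 32), (101, 32), (102, 32), (103, 32), (104,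 32), (105, 32), (106, 32), (107, 32), (108, 32)]

theorem lev1 : ∀ r < 33, 1 ≤ r → Sm 0 (r + 92) r := by decide +kernel

theorem lev0 : ∀ i < 60, ∃ p ∈ wit, 93 ≤ p.1 ∧ p.1 < 126 ∧ 1 ≤ p.2 ∧ p.2 < 33 ∧
    Sm p.1 p.2 (i + 33) := by decide +kernel

theorem jobGEN (cm : JobCM) : JobGEN := fun M hQ hy => by
  have cl : ∀ a b : G, a ∈ M → b ∈ M → ⁅a, b⁆ ∈ M := fun a b ha hb =>
    mul_mem (mul_mem (mul_mem ha hb) (inv_mem ha)) (inv_mem hb)
  have h1 : ∀ r < 33, 1 ≤ r → x r ∈ M := fun r h h' => by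
    rw [← (cm 0 (by omega) (r + 92) (by omega)).1 r (by omega) (lev1 r h h')]
    exact cl _ _ hy (hQ (x_mem_Q (by omega) (by omega)))
  have h2 : ∀ r < 126, x r ∈ M := fun r h => by
    rcases Nat.eq_zero_or_pos r with rfl | h0
    · exact hy
    by_cases a : r < 33
    · exact h1 r a h0
    by_cases b : 93 ≤ r
    · exact hQ (x_mem_Q b h)
    obtain ⟨i, rfl⟩ : ∃ i, r = i + 33 := ⟨r - 33, by omega⟩
    obtain ⟨p, -, p1, p2, p3, p4, p5⟩ := lev0 i (by omega)
    rw [← (cm p.1 p2 p.2 (by omega)).1 _ h p5]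
    exact cl _ _ (hQ (x_mem_Q p1 p2)) (h1 _ p4 p3)
  refine genG M fun r t => ?_
  have ht : ∀ t : F, t = 0 ∨ t = 1 := by decide
  rcases ht t with rfl | rfl
  · rw [show H63.xG chevE7 F r 0 = 1 from Subtype.ext (H65.xU_zero _)]; exact M.one_mem
  · exact h2 r r.2

end H88.E7M
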