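import Cfsg.Agent.H11.FBSpec
import Cfsg.Agent.S0413

/-! Tower FB (S3404), job ON3: degree 23 gives the Mathieu group. -/

set_option autoImplicit false

namespace H88.FBON3

open MulAction Subgroup H11.FB
open scoped Pointwise Nat

universe u v

theorem top_of_index {X : Type*} [Group X] [Finite X] [IsSimpleGroup X] {K : Subgroup X}
    (h : ¬ Nat.card X ∣ K.index !) : K = ⊤ := by
  rcases K.normalCore_normal.eq_bot_or_eq_top with e | e
  · refine absurd ?_ h
    rw [← index_bot, ← e, normalCore_eq_ker, index_ker, index_eq_card, ← Nat.card_perm]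
    exact card_subgroup_dvd_card (MulAction.toPermHom X (X ⧸ K)).range
  · exact top_le_iff.1 (e ▸ K.normalCore_le)

variable {G : Type u} {Ω : Type v} [Group G] [MulAction G Ω]

theorem mem_fix {g : G} {P : Subgroup G} {ω : Ω} :
    ω ∈ fixedPoints (cj g P) Ω ↔ g⁻¹ • ω ∈ fixedPoints P Ω := by
  simp only [mem_fixedPoints]
  constructor
  · intro h m
    have := h ⟨_, conj_mem_cj (g := g) m.2⟩
    change (g * (m : G) * g⁻¹) • ω = ω at this
    change (m : G) • g⁻¹ • ω = g⁻¹ • ω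
    rw [mul_smul, mul_smul] at this
    rw [eq_inv_smul_iff, this]
  · intro h m
    have := h ⟨_, mem_cj.1 m.2⟩
    change (g⁻¹ * (m : G) * g) • g⁻¹ • ω = g⁻¹ • ω at this
    change (m : G) • ω = ω
    rw [mul_smul, mul_smul, smul_inv_smul] at this
    exact MulAction.injective g⁻¹ this

theorem ncard_fix (g : G) (P : Subgroup G) :
    (fixedPoints (cj g P) Ω).ncard = (fixedPoints P Ω).ncard := by
  have : fixedPoints (cj g P) Ω = (g • ·) '' fixedPoints P Ω := by
    ext ω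
    rw [mem_fix]
    exact ⟨fun h => ⟨_, h, smul_inv_smul g ω⟩, by rintro ⟨x, hx, rfl⟩; rwa [inv_smul_smul]⟩
  rw [this, Set.ncard_image_of_injective _ (MulAction.injective g)]

/-- A conjugate of `P` that fixes four points is determined by them. -/
theorem cj_eq [Finite G] {a b c d : Ω} {K P : Subgroup G} (pd : Pd (L4 G a b c d) K P) {g g' : G}
    (h1 : g • a ∈ fixedPoints (cj g' P) Ω) (h2 : g • b ∈ fixedPoints (cj g' P) Ω)
    (h3 : g • c ∈ fixedPoints (cj g' P) Ω) (h4 : g • d ∈ fixedPoints (cj g' P) Ω) :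
    cj g' P = cj g P := by
  refine eq_of_le_of_card_ge (fun x hx => ?_) (by rw [card_cj, card_cj])
  obtain ⟨k, hk⟩ := (pd.cj g').pg ⟨x, hx⟩
  refine (pd.cj g).all x ?_ k (congrArg Subtype.val hk)
  rw [← L4_smul, mem_L4]
  exact ⟨h1 ⟨x, hx⟩, h2 ⟨x, hx⟩, h3 ⟨x, hx⟩, h4 ⟨x, hx⟩⟩

/-- The blocks. -/
def Bl (P : Subgroup G) (Ω : Type v) [MulAction G Ω] : Set (Finset Ω) :=
  {s | ∃ g : G, (s : Set Ω) = fixedPoints (cj g P) Ω}

theorem steiner [Finite G] [Fintype Ω] [DecidableEq Ω] {a b c d : Ω} {K H P : Subgroup G}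
    (hy : Hy a b c d K H) (pd : Pd (L4 G a b c d) K P) (h7 : (fixedPoints P Ω).ncard = 7) :
    Cfsg.IsSteinerSystem 4 7 (Bl P Ω) := by
  classical
  refine ⟨?_, fun s hs => ?_⟩
  · rintro s ⟨g, e⟩
    rw [← Set.ncard_coe_finset, e, ncard_fix, h7]
  obtain ⟨x, y, z, w, n1, n2, n3, n4, n5, n6, rfl⟩ := Finset.card_eq_four.1 hs
  obtain ⟨g, rfl, rfl, rfl, rfl⟩ := hy.exists_smul hy.ne ⟨n1, n2, n3, n4, n5, n6⟩
  have k : ∀ m : P, (m : G) ∈ L4 G a b c d := fun m => hy.fr.Kle (pd.le m.2)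
  refine ⟨(fixedPoints (cj g P) Ω).toFinset, ⟨⟨g, Set.coe_toFinset _⟩, ?_⟩, ?_⟩
  · intro ω hω
    rw [Set.mem_toFinset, mem_fix]
    simp only [Finset.mem_insert, Finset.mem_singleton] at hω
    rcases hω with rfl | rfl | rfl | rfl <;> rw [inv_smul_smul] <;> intro m
    · exact (mem_L4.1 (k m)).1
    · exact (mem_L4.1 (k m)).2.1
    · exact (mem_L4.1 (k m)).2.2.1
    · exact (mem_L4.1 (k m)).2.2.2
  · rintro t ⟨⟨g', e⟩, ht⟩
    have m : ∀ ω ∈ ({g • a, g • b, g • c, g • d} : Finset Ω), ω ∈ fixedPoints (cj g' P) Ω :=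
      fun ω hω => e ▸ Finset.mem_coe.2 (ht hω)
    apply Finset.coe_injective
    rw [e, Set.coe_toFinset, cj_eq pd (g := g) (m _ (by simp)) (m _ (by simp)) (m _ (by simp))
      (m _ (by simp))]

theorem smul_mem [DecidableEq Ω] {P : Subgroup G} (g : G) {s : Finset Ω} (hs : s ∈ Bl P Ω) :
    toPermHom G Ω g • s ∈ Bl P Ω := by
  obtain ⟨k, e⟩ := hs
  refine ⟨g * k, Set.ext fun ω => ?_⟩
  rw [Finset.mem_coe, ← Finset.inv_smul_mem_iff, ← Finset.mem_coe, e, mem_fix, mem_fix,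
    mul_inv_rev, mul_smul, ← map_inv]
  rfl

theorem mem_aut [DecidableEq Ω] (P : Subgroup G) (g : G) :
    toPermHom G Ω g ∈ Cfsg.setSystemAut (Bl P Ω) := by
  rw [mem_stabilizer_iff]
  ext s
  rw [Set.mem_smul_set_iff_inv_smul_mem, ← map_inv]
  refine ⟨fun h => ?_, smul_mem g⁻¹⟩
  have := smul_mem g h
  rwa [smul_smul, ← map_mul, mul_inv_cancel, map_one, one_smul] at this

/-- Job ON3 of the tower FB. -/
theorem jobON3 : JobON3.{u, v} := by
  intro G Ω _ _ _ _ _ _ a b c d K H P cx hn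
  have hB := steiner cx.hy cx.pd (cx.ph2.od7 (by rw [hn]; decide))
  obtain ⟨⟨hs, hc⟩, -⟩ := Cfsg.Agent.S0413.result hn hB
  obtain ⟨e⟩ := H76.aut23_equiv hn hB
  let f : G →* Cfsg.setSystemAut (Bl P Ω) := (toPermHom G Ω).codRestrict _ (mem_aut P)
  have hf : Function.Injective f := fun x y k =>
    toPerm_injective (α := G) (β := Ω) (congrArg Subtype.val k)
  have h1 : 3 ≤ Nat.card H := by
    obtain ⟨m, hm⟩ := cx.odd
    have : Nat.card H ≠ 1 := fun k => cx.hy.fr.Hne (card_eq_one.1 k)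
    omega
  have h2 : 4 ≤ Nat.card K := by
    have k1 : Nat.card P ≠ 1 := fun k => cx.pd.ne (card_eq_one.1 k)
    have k2 : 0 < Nat.card P := Nat.card_pos
    have k3 := Nat.le_of_dvd (by omega) (cx.cd.md P cx.pd.le fun m hm x hx =>
      cx.pd.conj_mem cx.hy.fr (fun l hl => mul_mem (mul_mem (cx.hy.fr.Hle hm) hl)
        (inv_mem (cx.hy.fr.Hle hm))) hx)
    have k4 := card_le_of_le cx.pd.le
    omega
  have h3 : 212520 * 12 ≤ Nat.card G := by
    rw [cx.cd.cG, cx.cd.cX, cx.cd.cL, hn]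
    have := Nat.mul_le_mul h2 h1
    omega
  have h4 := f.range.card_mul_index
  rw [hc, ← Nat.card_congr (MonoidHom.ofInjective hf).toEquiv] at h4
  have h5 : f.range.index ≤ 4 := by
    by_contra k
    have := Nat.mul_le_mul h3 (show 5 ≤ f.range.index by omega)
    omega
  have ht : f.range = ⊤ := top_of_index fun k => by
    have k1 := Nat.le_of_dvd (Nat.factorial_pos _) k
    have k2 : f.range.index ! ≤ 4 ! := Nat.factorial_le h5
    rw [hc] at k1
    have : 4 ! = 24 := rfl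
    omega
  exact ⟨(MulEquiv.ofBijective f ⟨hf, MonoidHom.range_eq_top.1 ht⟩).trans e⟩

end H88.FBON3
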