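/- Sharp form of Bochert's bound for the minimal degree of a 4-transitive group. -/
import Cfsg.Agent.H41.LnB
import Cfsg.Agent.H33.LnCnt
import Cfsg.Agent.S0711
import Cfsg.Agent.S4220
import Cfsg.Agent.H42.PnSpec

set_option autoImplicit false
set_option linter.unusedSectionVars false
set_option linter.unusedSimpArgs false
set_option linter.unusedVariables false

namespace H88.PB

open Equiv MulAction H2.Ln H41.Ln Finset

theorem swp {G ι : Type} (F : Finset G) (P : Finset ι) (r : G → ι → Prop) [∀ g p, Decidable (r g p)] :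
    ∑ g ∈ F, (P.filter (r g)).card = ∑ p ∈ P, (F.filter fun g => r g p).card := by
  simp only [card_filter]
  rw [sum_comm]

theorem fib {G ι : Type} [DecidableEq ι] (F : Finset G) (S : Finset ι) (φ : G → ι) {T : ℕ}
    (h : ∀ e ∈ S, (F.filter fun g => φ g = e).card = T) :
    (F.filter fun g => φ g ∈ S).card = S.card * T := by
  rw [← sum_card_fiberwise_eq_card_filter, sum_congr rfl h, sum_const, smul_eq_mul]

variable {α : Type} [Fintype α] [DecidableEq α] {M : Subgroup (Perm α)} {x : Perm α} {a w : α}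

theorem sumA' (ha : x a ≠ a) (hw : x w = w) {T U : ℕ}
    (hU : ∀ d e, [a, w, d].Nodup → [a, x a, e].Nodup →
      ((el M).filter fun g => g a = a ∧ g w = x a ∧ g d = e).card = U)
    (hT : ∀ d d' e e', [a, w, d, d'].Nodup → [a, x a, e, e'].Nodup →
      ((el M).filter fun g => g a = a ∧ g w = x a ∧ g d = e ∧ g d' = e').card = T)
    (hTU : (x.support.card - 2) * T ≤ U) :
    (x.support.card - 2) * ((x.support.card - 1) * (x.support.card - 2) * T) ≤ ∑ g ∈ FF M x a w,
      ((x.support ∩ (g * x * g⁻¹).support).filter fun e => x e ∈ (g * x * g⁻¹).support).card := by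
  have aw : a ≠ w := fun e => ha (e ▸ hw)
  have nw : ∀ d, x d ≠ d → w ≠ d := fun d h e => h (e ▸ hw)
  have am : a ∈ x.support := Perm.mem_support.2 ha
  have c1 : (x.support.erase a).card = x.support.card - 1 := card_erase_of_mem am
  have c2 : ((x.support.erase a).erase (x a)).card = x.support.card - 2 := by
    rw [card_erase_of_mem (mem_erase.2 ⟨ha, by simpa using ha⟩), c1]; rfl
  have ms : ∀ (g : Perm α) e, e ∈ (g * x * g⁻¹).support ↔ g⁻¹ e ∈ x.support := fun g e => by
    obtain ⟨d, rfl⟩ := g.surjective e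
    rw [mem_conj]; simp
  calc _ = ∑ e ∈ (x.support.erase a).erase (x a), (x.support.card - 1) * (x.support.card - 2) * T := by
        rw [sum_const, c2, smul_eq_mul]
    _ ≤ ∑ e ∈ (x.support.erase a).erase (x a), ((FF M x a w).filter fun g =>
          g⁻¹ e ∈ x.support ∧ g⁻¹ (x e) ∈ x.support).card := by
        refine sum_le_sum fun e he => ?_
        simp only [mem_erase, Perm.mem_support] at he
        obtain ⟨e1, e2, e3⟩ := he
        by_cases k : x e = a
        · have := fib (FF M x a w) (x.support.erase a) (fun g => g⁻¹ e) (T := U) fun d hd => by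
            simp only [mem_erase, Perm.mem_support] at hd
            rw [FF, filter_filter, ← hU d e (by simp [aw, hd.1.symm, nw _ hd.2])
              (by simp [ha.symm, e1.symm, e2.symm])]
            simp only [and_assoc, Perm.inv_eq_iff_eq, eq_comm (a := e)]
          rw [c1] at this
          refine le_trans (by rw [mul_assoc]; exact Nat.mul_le_mul_left _ hTU)
            (this.ge.trans (card_le_card fun g hg => ?_))
          obtain ⟨g1, g2⟩ := mem_filter.1 hg
          refine mem_filter.2 ⟨g1, mem_of_mem_erase g2, ?_⟩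
          rw [k, Perm.inv_eq_iff_eq.2 (mem_filter.1 g1).2.1.symm]
          exact am
        · have := fib (FF M x a w) (x.support.erase a).offDiag (fun g => (g⁻¹ e, g⁻¹ (x e))) (T := T)
            fun d hd => by
              simp only [mem_offDiag, mem_erase, Perm.mem_support] at hd
              obtain ⟨⟨q1, q2⟩, ⟨q3, q4⟩, q5⟩ := hd
              have k2 : x a ≠ x e := fun h => e2 (x.injective h).symm
              rw [FF, filter_filter, ← hT d.1 d.2 e (x e)
                (by simp [aw, q1.symm, q3.symm, nw _ q2, nw _ q4, q5])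
                (by simp [ha.symm, e1.symm, e2.symm, e3.symm, Ne.symm k, k2])]
              simp only [and_assoc, Prod.ext_iff, Perm.inv_eq_iff_eq, eq_comm (a := e), eq_comm (a := x e)]
          rw [offD, c1] at this
          refine this.ge.trans (card_le_card fun g hg => ?_)
          obtain ⟨g1, g2⟩ := mem_filter.1 hg
          rw [mem_offDiag] at g2
          exact mem_filter.2 ⟨g1, mem_of_mem_erase g2.1, mem_of_mem_erase g2.2.1⟩
    _ = ∑ g ∈ FF M x a w, (((x.support.erase a).erase (x a)).filter fun e =>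
          g⁻¹ e ∈ x.support ∧ g⁻¹ (x e) ∈ x.support).card := (swp _ _ _).symm
    _ ≤ _ := sum_le_sum fun g _ => card_le_card fun e he => by
        obtain ⟨h1, h2, h3⟩ := mem_filter.1 he
        exact mem_filter.2 ⟨mem_inter.2 ⟨mem_of_mem_erase (mem_of_mem_erase h1), (ms _ _).2 h2⟩,
          (ms _ _).2 h3⟩

theorem sumB' (ha : x a ≠ a) (hw : x w = w) {T U : ℕ}
    (hU : ∀ d e, [a, w, d].Nodup → [a, x a, e].Nodup →
      ((el M).filter fun g => g a = a ∧ g w = x a ∧ g d = e).card = U)
    (hT : ∀ d d' e e', [a, w, d, d'].Nodup → [a, x a, e, e'].Nodup →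
      ((el M).filter fun g => g a = a ∧ g w = x a ∧ g d = e ∧ g d' = e').card = T) :
    (x.support.card - 2) * ((x.support.card - 2) * (x.support.card - 3) * T) +
      2 * ((x.support.card - 2) * U) ≤ ∑ g ∈ FF M x a w,
      ((x.support ∩ (g * x * g⁻¹).support).filter fun e => (g * x * g⁻¹) e ∈ x.support).card := by
  have aw : a ≠ w := fun e => ha (e ▸ hw)
  have nw : ∀ d, x d ≠ d → w ≠ d := fun d h e => h (e ▸ hw)
  have am : a ∈ x.support := Perm.mem_support.2 ha
  have c1 : (x.support.erase a).card = x.support.card - 1 := card_erase_of_mem am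
  have c2 : ((x.support.erase a).erase (x a)).card = x.support.card - 2 := by
    rw [card_erase_of_mem (mem_erase.2 ⟨ha, by simpa using ha⟩), c1]; rfl
  have ia : x⁻¹ a ≠ a := fun e => ha (Perm.inv_eq_iff_eq.1 e).symm
  have im : x⁻¹ a ∈ x.support.erase a := mem_erase.2 ⟨ia, Perm.mem_support.2 (by
    rw [H33.Ln.ai]; exact ia.symm)⟩
  have c3 : ((x.support.erase a).erase (x⁻¹ a)).card = x.support.card - 2 := by
    rw [card_erase_of_mem im, c1]; rfl
  have one : ∀ d, x d ≠ d → d ≠ a → ((FF M x a w).filter fun g =>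
      g d ∈ (x.support.erase a).erase (x a)).card = (x.support.card - 2) * U := fun d h1 h2 => by
    rw [← c2]
    refine fib _ _ (fun g : Perm α => g d) fun e he => ?_
    simp only [mem_erase, Perm.mem_support] at he
    rw [FF, filter_filter, ← hU d e (by simp [aw, h2.symm, nw _ h1])
      (by simp [ha.symm, he.1.symm, he.2.1.symm])]
    simp only [and_assoc]
  calc _ ≤ ∑ d ∈ x.support, ((FF M x a w).filter fun g =>
          g d ∈ x.support ∧ g (x d) ∈ x.support).card := by
        rw [← add_sum_erase _ _ am, ← add_sum_erase _ _ im, two_mul, add_comm, add_assoc]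
        refine add_le_add ?_ (add_le_add ?_ ?_)
        · refine (one (x a) (fun e => ha (x.injective e)) ha).ge.trans (card_le_card fun g hg => ?_)
          obtain ⟨g1, g2⟩ := mem_filter.1 hg
          exact mem_filter.2 ⟨g1, by rw [(mem_filter.1 g1).2.1]; exact am,
            mem_of_mem_erase (mem_of_mem_erase g2)⟩
        · refine (one (x⁻¹ a) (Perm.mem_support.1 (mem_of_mem_erase im)) ia).ge.trans
            (card_le_card fun g hg => ?_)
          obtain ⟨g1, g2⟩ := mem_filter.1 hg
          refine mem_filter.2 ⟨g1, mem_of_mem_erase (mem_of_mem_erase g2), ?_⟩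
          rw [H33.Ln.ai, (mem_filter.1 g1).2.1]; exact am
        · rw [← c3, ← smul_eq_mul, ← sum_const, c3]
          refine sum_le_sum fun d hd => ?_
          simp only [mem_erase, Perm.mem_support] at hd
          obtain ⟨p1, p2, p3⟩ := hd
          have k : a ≠ x d := fun e => p1 (by rw [e]; simp)
          have := fib (FF M x a w) ((x.support.erase a).erase (x a)).offDiag (fun g => (g d, g (x d)))
            (T := T) fun e he => by
              simp only [mem_offDiag, mem_erase, Perm.mem_support] at he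
              obtain ⟨⟨q1, q2, q3⟩, ⟨q4, q5, q6⟩, q7⟩ := he
              rw [FF, filter_filter, ← hT d (x d) e.1 e.2 (by
                  simp [aw, p2.symm, k, nw _ p3, nw (x d) (fun e => p3 (x.injective e)), p3.symm])
                (by simp [ha.symm, q1.symm, q2.symm, q4.symm, q5.symm, q7])]
              simp only [and_assoc, Prod.ext_iff]
          rw [offD, c2] at this
          refine this.ge.trans (card_le_card fun g hg => ?_)
          obtain ⟨g1, g2⟩ := mem_filter.1 hg
          rw [mem_offDiag] at g2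
          exact mem_filter.2 ⟨g1, mem_of_mem_erase (mem_of_mem_erase g2.1),
            mem_of_mem_erase (mem_of_mem_erase g2.2.1)⟩
    _ = ∑ g ∈ FF M x a w, (x.support.filter fun d => g d ∈ x.support ∧ g (x d) ∈ x.support).card :=
        (swp _ _ _).symm
    _ ≤ _ := sum_le_sum fun g _ => card_le_card_of_injOn g (fun d hd => by
        obtain ⟨h1, h2, h3⟩ := mem_filter.1 (mem_coe.1 hd)
        refine mem_coe.2 (mem_filter.2 ⟨mem_inter.2 ⟨h2, mem_conj.2 h1⟩, ?_⟩)
        simpa only [Perm.mul_apply, Perm.coe_inv, symm_apply_apply] using h3) g.injective.injOn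

/-- The sharp inequality for the minimal degree. -/
theorem dg4 (h4' : IsMultiplyPretransitive M α 4) (hx : Mn M x) (h4 : 4 ≤ x.support.card)
    (hn : x.support.card < Fintype.card α) {n m : ℕ} (hn' : Fintype.card α = n + 4)
    (hm : x.support.card = m + 3) :
    m * (n + 2) * (n + 1) + 2 * (m + 1) ^ 3 + 2 * (m + 1) * (n + 1) ≤ 3 * (m + 2) * (m + 1) * (n + 1) := by
  obtain ⟨a, w, ha, hw⟩ := ex_aw h4 hn
  obtain ⟨-, c2, c3, c4⟩ := H33.Ln.jobCnt α M
  have h2 : IsMultiplyPretransitive M α 2 :=
    isMultiplyPretransitive_of_le (n := 4) (by omega) (by rw [Nat.card_eq_fintype_card]; omega)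
  have h3 : IsMultiplyPretransitive M α 3 :=
    isMultiplyPretransitive_of_le (n := 4) (by omega) (by rw [Nat.card_eq_fintype_card]; omega)
  have aw : a ≠ w := fun e => ha (e ▸ hw)
  obtain ⟨T, hT⟩ : ∃ T, T * ((n + 4) * (n + 3) * (n + 2) * (n + 1)) = (el M).card := by
    obtain ⟨s, -, hs⟩ := exists_subset_card_eq (s := (univ : Finset α)) (n := 4) (by rw [card_univ]; omega)
    obtain ⟨a, b, c, d, h1, h2, h3, h4, h5, h6, -⟩ := card_eq_four.1 hs
    have : [a, b, c, d].Nodup := by simp [*]
    exact ⟨_, by rw [← c4 h4' _ _ _ _ _ _ _ _ this this, hn']; rfl⟩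
  have k2 : (FF M x a w).card = T * ((n + 2) * (n + 1)) :=
    Nat.eq_of_mul_eq_mul_right (m := (n + 4) * (n + 3)) (by positivity) (by
      have := c2 h2 a w a (x a) aw ha.symm
      rw [hn', ← hT] at this
      exact this.trans (by ring))
  have k3 : ∀ d e, [a, w, d].Nodup → [a, x a, e].Nodup →
      ((el M).filter fun g => g a = a ∧ g w = x a ∧ g d = e).card = T * (n + 1) := fun d e p q =>
    Nat.eq_of_mul_eq_mul_right (m := (n + 4) * (n + 3) * (n + 2)) (by positivity) (by
      have := c3 h3 _ _ _ _ _ _ p q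
      rw [hn', ← hT] at this
      exact this.trans (by ring))
  have s := sumI (M := M) ha hw k3
  have k4 : ∀ d d' e e', [a, w, d, d'].Nodup → [a, x a, e, e'].Nodup →
      ((el M).filter fun g => g a = a ∧ g w = x a ∧ g d = e ∧ g d' = e').card = T := fun d d' e e' p q =>
    Nat.eq_of_mul_eq_mul_right (m := (n + 4) * (n + 3) * (n + 2) * (n + 1)) (by positivity) (by
      have := c4 h4' _ _ _ _ _ _ _ _ p q
      rw [hn', ← hT] at this
      exact this)
  have sA := sumA' ha hw k3 k4 (by rw [mul_comm]; exact Nat.mul_le_mul_left _ (by omega))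
  have sB := sumB' ha hw k3 k4
  have t := sum_le_sum fun g hg => main H33.Ln.jobCom hx ha hw (g := g) hg
  rw [sum_add_distrib, sum_add_distrib, sum_const, ← mul_sum, smul_eq_mul] at t
  have p := el_pos M
  have T0 : 0 < T := Nat.pos_of_ne_zero fun h => by rw [h] at hT; omega
  simp only [hm, k2, Nat.add_succ_sub_one, Nat.add_sub_cancel, show ∀ k, k + 3 - 2 = k + 1 from fun _ => rfl]
    at s sA sB t
  refine Nat.le_of_mul_le_mul_right (c := T) ?_ T0
  nlinarith

/-- Bochert: a 4-transitive group not containing the alternating group has minimal degree at least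
`(n - 3) / 2`. -/
theorem bochert4 (h4 : IsMultiplyPretransitive M α 4) (hc : 4 ≤ Fintype.card α)
    (hA : ¬ alternatingGroup α ≤ M) (hx : x ∈ M) (h1 : x ≠ 1) :
    6 ≤ x.support.card ∧ Fintype.card α ≤ 2 * x.support.card + 3 := by
  have six : ∀ y ∈ M, y ≠ 1 → 6 ≤ y.support.card := fun y hy y1 => by
    by_contra h
    exact hA (Cfsg.Agent.S0711.result M (k := 4) (by omega) hc h4 y hy y1 (by omega)).2
  refine ⟨six x hx h1, ?_⟩
  obtain ⟨y, ⟨hy, y1⟩, hmin⟩ := exists_minimalFor_of_wellFoundedLT
    (fun h : Perm α => h ∈ M ∧ h ≠ 1) (fun h => h.support.card) ⟨x, hx, h1⟩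
  have mn : Mn M y := ⟨hy, y1, fun z hz z1 => by
    by_contra h
    exact absurd (hmin ⟨hz, z1⟩ (le_of_lt (not_le.1 h))) h⟩
  have l := mn.2.2 x hx h1
  have s6 := six y hy y1
  by_contra hlt
  obtain ⟨i, hi⟩ : ∃ i, y.support.card = i + 3 + 3 := ⟨y.support.card - 6, by omega⟩
  obtain ⟨j, hj⟩ : ∃ j, Fintype.card α = 2 * i + j + 12 + 4 := ⟨Fintype.card α - (2 * i + 16), by omega⟩
  have d := dg4 h4 mn (by omega) (by omega) hj hi
  have z : i = 0 ∧ j = 0 := by
    by_contra hz
    have : 1 ≤ i + j := by omega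
    nlinarith [Nat.zero_le (i * j), Nat.zero_le (i * i), Nat.zero_le (j * j), Nat.zero_le (i * j * j),
      Nat.zero_le (i * i * j)]
  obtain ⟨rfl, rfl⟩ := z
  exact hA (Cfsg.Agent.S4220.result M (k := 1) (p := 13) (r := 3) (by norm_num) (by omega) le_rfl
    (by omega) (by omega) (by omega) h4)

theorem mt4 (h : H42.PN.T4 M univ) : IsMultiplyPretransitive M α 4 := by
  refine isMultiplyPretransitive_iff.2 fun u v => ?_
  have nd : ∀ u : Fin 4 ↪ α, [u 0, u 1, u 2, u 3].Nodup := fun u => by simp [u.injective.eq_iff]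
  obtain ⟨g, hg, h0, h1, h2, h3⟩ := h _ (mem_univ _) _ (mem_univ _) _ (mem_univ _) _ (mem_univ _)
    _ (mem_univ _) _ (mem_univ _) _ (mem_univ _) _ (mem_univ _) (nd u) (nd v)
  refine ⟨⟨g, hg⟩, Function.Embedding.ext fun i => ?_⟩
  fin_cases i
  exacts [h0, h1, h2, h3]

theorem jobDeg : H42.PN.Deg := fun α _ _ M hn h =>
  (em _).imp id fun hA x hx h1 => bochert4 (mt4 h) hn hA hx h1

end H88.PB
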