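/- U4 tower (row S5210), chapter q = 3: normal forms of root bases. -/
import Cfsg.Agent.H90.Q3Spec

set_option autoImplicit false
set_option linter.unusedSectionVars false
set_option linter.unusedVariables false
set_option maxRecDepth 100000

open Subgroup H28.U4 H77 Cfsg H90.Q3

namespace H88.Q3N

/-- the vector with code `n` -/
def v (n : ℕ) : V := ⟨n, (n / 3 : ℕ), (n / 9 : ℕ), (n / 27 : ℕ), (n / 81 : ℕ)⟩
/-- a table entry -/
def wrd (T : List (ℕ × List ℕ)) (k : ℕ) : List ℕ := (T.lookup k).getD []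
/-- the Gram condition -/
def gm (c : ZMod 3) (x y : V) : Prop := dot x y = c ∧ x ≠ y ∧ x ≠ ng y
instance instDecGm (c : ZMod 3) (x y : V) : Decidable (gm c x y) := by unfold gm; infer_instance

theorem sh_append (l l' : List V) (y : V) : sh (l ++ l') y = sh l (sh l' y) := List.foldr_append

theorem sh_ng (l : List V) (y : V) : sh l (ng y) = ng (sh l y) := by
  induction l with
  | nil => rfl
  | cons a l ih => exact (congrArg (rf a) ih).trans (rf_ng _ _)

theorem sh_inj {l : List V} (h : ∀ a ∈ l, dot a a ≠ 0) {x y : V} (e : sh l x = sh l y) : x = y := by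
  induction l with
  | nil => exact e
  | cons a l ih =>
    refine ih (fun b hb => h b (List.mem_cons_of_mem _ hb)) ?_
    have k := h a List.mem_cons_self
    rw [← rf_rf k (sh l x), ← rf_rf k (sh l y)]
    exact congrArg (rf a) e

theorem gm_sh {B y : Fin 4 → V} (g : Gm B y) {l : List V} (h : ∀ a ∈ l, dot a a ≠ 0) {i j : Fin 4} (n : i ≠ j) :
    gm (dot (B i) (B j)) (sh l (y i)) (sh l (y j)) :=
  ⟨(dot_sh h _ _).trans (g i j).1, fun e => ((g i j).2 n).1 (sh_inj h e),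
    fun e => ((g i j).2 n).2 (sh_inj h (e.trans (sh_ng _ _).symm))⟩

/-- the test of the second table -/
def T2 (L : List ℕ) (T : List (ℕ × List ℕ)) (B : Fin 4 → V) (Q : V → V → V → V → Prop) : Prop :=
  ∀ n1 ∈ L, gm (dot (B 0) (B 1)) a0 (v n1) → ∀ n2 ∈ L, gm (dot (B 0) (B 2)) a0 (v n2) →
    gm (dot (B 1) (B 2)) (v n1) (v n2) → ∀ n3 ∈ L, gm (dot (B 0) (B 3)) a0 (v n3) →
      gm (dot (B 1) (B 3)) (v n1) (v n3) → gm (dot (B 2) (B 3)) (v n2) (v n3) →
      (∀ a ∈ wrd T (n1 + 243 * n2 + 59049 * n3), a ∈ L) ∧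
        Q (sh ((wrd T (n1 + 243 * n2 + 59049 * n3)).map v) a0)
          (sh ((wrd T (n1 + 243 * n2 + 59049 * n3)).map v) (v n1))
          (sh ((wrd T (n1 + 243 * n2 + 59049 * n3)).map v) (v n2))
          (sh ((wrd T (n1 + 243 * n2 + 59049 * n3)).map v) (v n3))

theorem main {P : V → Prop} {L : List ℕ} {S T : List (ℕ × List ℕ)} {B : Fin 4 → V} {Q : V → V → V → V → Prop}
    (hL : ∀ x, Ro x → P x → ∃ n ∈ L, v n = x) (hL' : ∀ n ∈ L, Ro (v n) ∧ P (v n))
    (hc : ∀ a ∈ L, ∀ n ∈ L, P (rf (v a) (v n)))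
    (hS : ∀ n ∈ L, (∀ a ∈ wrd S n, a ∈ L) ∧ sh ((wrd S n).map v) (v n) = a0) (hT : T2 L T B Q)
    (y : Fin 4 → V) (hy : ∀ i, Ro (y i) ∧ P (y i)) (g : Gm B y) :
    ∃ l : List V, (∀ a ∈ l, Ro a ∧ P a) ∧ Q (sh l (y 0)) (sh l (y 1)) (sh l (y 2)) (sh l (y 3)) := by
  have wl : ∀ w : List ℕ, (∀ a ∈ w, a ∈ L) → ∀ a ∈ w.map v, Ro a ∧ P a := fun w h a ha => by
    obtain ⟨n, hn, rfl⟩ := List.mem_map.1 ha
    exact hL' n (h n hn)
  have cl : ∀ w : List ℕ, (∀ a ∈ w, a ∈ L) → ∀ x, Ro x ∧ P x → ∃ n ∈ L, v n = sh (w.map v) x := fun w h x hx => by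
    induction w with
    | nil => exact hL x hx.1 hx.2
    | cons a w ih =>
      obtain ⟨n, hn, e⟩ := ih fun b hb => h b (List.mem_cons_of_mem _ hb)
      have ha := h a List.mem_cons_self
      change ∃ n ∈ L, v n = rf (v a) (sh (w.map v) x)
      rw [← e]
      exact hL _ ((hL' n hn).1.rf (hL' a ha).1.ne) (hc a ha n hn)
  obtain ⟨n0, h0, e0⟩ := hL _ (hy 0).1 (hy 0).2
  obtain ⟨w0, s0⟩ := hS n0 h0
  rw [e0] at s0
  have ne : ∀ a ∈ (wrd S n0).map v, dot a a ≠ 0 := fun a ha => (wl _ w0 a ha).1.ne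
  obtain ⟨n1, h1, e1⟩ := cl _ w0 _ (hy 1)
  obtain ⟨n2, h2, e2⟩ := cl _ w0 _ (hy 2)
  obtain ⟨n3, h3, e3⟩ := cl _ w0 _ (hy 3)
  obtain ⟨w1, q⟩ := hT n1 h1 (by rw [e1, ← s0]; exact gm_sh g ne (by decide)) n2 h2
    (by rw [e2, ← s0]; exact gm_sh g ne (by decide)) (by rw [e1, e2]; exact gm_sh g ne (by decide)) n3 h3
    (by rw [e3, ← s0]; exact gm_sh g ne (by decide)) (by rw [e1, e3]; exact gm_sh g ne (by decide))
    (by rw [e2, e3]; exact gm_sh g ne (by decide))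
  refine ⟨_ ++ _, fun a ha => (List.mem_append.1 ha).elim (wl _ w1 a) (wl _ w0 a), ?_⟩
  simp only [sh_append]
  rwa [s0, ← e1, ← e2, ← e3]

/-- table -/
def LA : List ℕ := [5, 7, 11, 15, 19, 21, 29, 33, 45, 55, 57, 63, 83, 87, 99, 135, 163, 165, 171, 189]
/-- table -/
def SA : List (ℕ × List ℕ) := [(5, [45]), (7, []), (11, [15]), (15, [11, 29]), (19, [15, 33]), (21, [11]),
  (29, [33]), (33, [11, 45]), (45, [15, 29]), (55, [15, 45]), (57, [29]), (63, [11, 33]), (83, [87]), (87, [11,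
  99]), (99, [15, 83]), (135, [33, 83]), (163, [15, 99]), (165, [83]), (171, [11, 87]), (189, [29, 87])]
/-- table -/
def TA : List (ℕ × List ℕ) := [(7982561, [5]), (11184329, [5, 135]), (11175591, []), (8013189, [135]),
  (5861189, [5, 45]), (10130213, [5, 45, 99]), (10108371, [45]), (5891835, [45, 99]), (2698841, [5, 45, 135]),
  (3766097, [5, 99]), (3744309, [45, 135]), (2690175, [99])]
/-- table -/
def LD : List ℕ := [4, 5, 7, 8, 10, 11, 12, 15, 19, 20, 21, 24, 28, 29, 30, 33, 36, 45, 55, 56, 57, 60, 63,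
  72, 82, 83, 84, 87, 90, 99, 108, 135, 163, 164, 165, 168, 171, 180, 189, 216]
/-- table -/
def SD : List (ℕ × List ℕ) := [(4, [12, 15]), (5, [4]), (7, []), (8, [10, 11]), (10, [4, 12]), (11, [15]),
  (12, [10]), (15, [4, 11]), (19, [4, 15]), (20, [12]), (21, [11]), (24, [4, 10]), (28, [4, 30]), (29, [33]),
  (30, [28]), (33, [4, 29]), (36, [11, 30]), (45, [10, 30]), (55, [4, 33]), (56, [30]), (57, [29]), (60, [4,
  28]), (63, [11, 33]), (72, [10, 33]), (82, [4, 84]), (83, [87]), (84, [82]), (87, [4, 83]), (90, [11, 84]),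
  (99, [10, 84]), (108, [29, 84]), (135, [28, 84]), (163, [4, 87]), (164, [84]), (165, [83]), (168, [4, 82]),
  (171, [11, 87]), (180, [10, 87]), (189, [29, 87]), (216, [28, 87])]
/-- table -/
def TD : List (ℕ × List ℕ) := [(7982561, [5]), (12765530, [4, 36, 45]), (6394799, [4, 90, 99]), (11177768, [5,
  108, 135]), (11184329, [5, 135]), (12778652, [4, 36, 45, 135]), (6421043, [4, 36, 45, 108]), (8015366, [5,
  108]), (7982562, [4, 5]), (12765531, [36, 45]), (6394800, [90, 99]), (11177769, [4, 5, 108, 135]), (11184330,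
  [4, 5, 135]), (12778653, [36, 45, 135]), (6421044, [36, 45, 108]), (8015367, [4, 5, 108]), (7980383, [4, 108,
  135]), (12763352, [5, 90, 99]), (6392621, [5, 36, 45]), (11175590, [4]), (11182151, [4, 108]), (12776474, [5,
  36, 45, 108]), (6418865, [5, 36, 45, 135]), (8013188, [4, 135]), (7980384, [108, 135]), (12763353, [4, 5, 90,
  99]), (6392622, [4, 5, 36, 45]), (11175591, []), (11182152, [108]), (12776475, [4, 5, 36, 45, 108]), (6418866,
  [4, 5, 36, 45, 135]), (8013189, [135]), (5861189, [5, 45]), (10644158, [4, 36]), (5331935, [4, 36, 90, 99]),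
  (10114904, [5, 36, 108, 135]), (10130213, [5, 45, 99]), (10661654, [4, 36, 99]), (5366927, [4, 36, 90]),
  (5898368, [5, 45, 90]), (5861190, [4, 5, 45]), (10644159, [36]), (5331936, [36, 90, 99]), (10114905, [4, 5,
  36, 108, 135]), (10130214, [4, 5, 45, 99]), (10661655, [36, 99]), (5366928, [36, 90]), (5898369, [4, 5, 45,
  90]), (5854655, [4, 36, 108, 135]), (10637624, [5, 36, 90, 99]), (5325401, [5, 36]), (10108370, [4, 45]),
  (10123679, [4, 45, 90]), (10655120, [5, 36, 90]), (5360393, [5, 36, 99]), (5891834, [4, 45, 99]), (5854656,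
  [36, 108, 135]), (10637625, [4, 5, 36, 90, 99]), (5325402, [4, 5, 36]), (10108371, [45]), (10123680, [45,
  90]), (10655121, [4, 5, 36, 90]), (5360394, [4, 5, 36, 99]), (5891835, [45, 99]), (2698841, [5, 45, 135]),
  (4293164, [4, 36, 135]), (2169587, [4, 45, 108]), (3763910, [5, 36, 108]), (3766097, [5, 99]), (4297538, [4,
  36, 45, 99]), (2178335, [4, 90]), (2709776, [5, 36, 45, 90]), (2698842, [4, 5, 45, 135]), (4293165, [36,
  135]), (2169588, [45, 108]), (3763911, [4, 5, 36, 108]), (3766098, [4, 5, 99]), (4297539, [36, 45, 99]),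
  (2178336, [90]), (2709777, [4, 5, 36, 45, 90]), (2679239, [4, 36, 108]), (4273562, [5, 45, 108]), (2149985,
  [5, 36, 135]), (3744308, [4, 45, 135]), (3746495, [4, 36, 45, 90]), (4277936, [5, 90]), (2158733, [5, 36, 45,
  99]), (2690174, [4, 99]), (2679240, [36, 108]), (4273563, [4, 5, 45, 108]), (2149986, [4, 5, 36, 135]),
  (3744309, [45, 135]), (3746496, [36, 45, 90]), (4277937, [4, 5, 90]), (2158734, [4, 5, 36, 45, 99]), (2690175,
  [99])]
/-- table -/
def LE : List ℕ := [4, 5, 7, 8, 10, 11, 12, 15, 19, 20, 21, 24, 28, 29, 30, 33, 36, 45, 55, 56, 57, 60, 63,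
  72]
/-- table -/
def SE : List (ℕ × List ℕ) := [(4, [12, 15]), (5, [4]), (7, []), (8, [10, 11]), (10, [4, 12]), (11, [15]),
  (12, [10]), (15, [4, 11]), (19, [4, 15]), (20, [12]), (21, [11]), (24, [4, 10]), (28, [4, 30]), (29, [33]),
  (30, [28]), (33, [4, 29]), (36, [11, 30]), (45, [10, 30]), (55, [4, 33]), (56, [30]), (57, [29]), (60, [4,
  28]), (63, [11, 33]), (72, [10, 33])]
/-- table -/
def TE : List (ℕ × List ℕ) := [(2658188, [5]), (4252511, [5]), (247142, [5]), (4262474, [5]), (253703, [5]),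
  (2674712, [5]), (2659161, [36, 45]), (4253484, [36, 45]), (483339, [36, 45]), (4262475, [36, 45]), (489900,
  [36, 45]), (2674713, [36, 45]), (2126756, [5, 36, 45]), (3721079, [5, 36, 45]), (244964, [5, 36, 45]),
  (3728855, [5, 36, 45]), (251525, [5, 36, 45]), (2141093, [5, 36, 45]), (2127729, []), (3722052, []), (481161,
  []), (3728856, []), (487722, []), (2141094, []), (3721088, [4, 36]), (4252529, [4, 36]), (251534, [4, 36]),
  (4266866, [4, 36]), (253721, [4, 36]), (3737612, [4, 36]), (3722061, [4, 5, 45]), (4253502, [4, 5, 45]),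
  (487731, [4, 5, 45]), (4266867, [4, 5, 45]), (489918, [4, 5, 45]), (3737613, [4, 5, 45]), (2126792, [4, 45]),
  (2658233, [4, 45]), (245000, [4, 45]), (2666009, [4, 45]), (247187, [4, 45]), (2136755, [4, 45]), (2127765,
  [4, 5, 36]), (2659206, [4, 5, 36]), (481197, [4, 5, 36]), (2666010, [4, 5, 36]), (483384, [4, 5, 36]),
  (2136756, [4, 5, 36])]

/-- the normal form for `A₄` -/
def QA (x0 x1 x2 x3 : V) : Prop :=
  (x0 = a0 ∧ x1 = a1 ∧ x2 = a2 ∧ x3 = a3) ∨ x0 = ng a0 ∧ x1 = ng a1 ∧ x2 = ng a2 ∧ x3 = ng a3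
instance instDecQA (x0 x1 x2 x3 : V) : Decidable (QA x0 x1 x2 x3) := by unfold QA; infer_instance
/-- the normal form for `D₄` -/
def QD (x0 x1 x2 x3 : V) : Prop := ∃ m : Fin 3,
  (x3 = sh (tl m m) b3 ∧ x2 = sh (tl m m) a2 ∧ x0 = sh (tl m m) a0 ∧ x1 = sh (tl m m) a1) ∨
    x3 = sh (tl m m ++ [a3, a4]) b3 ∧ x2 = sh (tl m m ++ [a3, a4]) a2 ∧ x0 = sh (tl m m ++ [a3, a4]) a0 ∧
      x1 = sh (tl m m ++ [a3, a4]) a1
instance instDecQD (x0 x1 x2 x3 : V) : Decidable (QD x0 x1 x2 x3) := by unfold QD; infer_instance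

theorem tA : T2 LA TA bA QA := by unfold T2; decide +kernel
theorem tD : T2 LD TD bA QA := by unfold T2; decide +kernel
theorem tE : T2 LE TE bD QD := by unfold T2; decide +kernel

theorem fin {P : V → Prop} {y : Fin 4 → V}
    (h : ∃ l : List V, (∀ a ∈ l, Ro a ∧ P a) ∧ QA (sh l (y 0)) (sh l (y 1)) (sh l (y 2)) (sh l (y 3))) :
    ∃ l : List V, (∀ a ∈ l, Ro a ∧ P a) ∧ ((∀ i, sh l (y i) = bA i) ∨ ∀ i, sh l (y i) = ng (bA i)) := by
  obtain ⟨l, hl, q⟩ := h
  refine ⟨l, hl, q.imp (fun ⟨a, b, c, d⟩ i => ?_) fun ⟨a, b, c, d⟩ i => ?_⟩ <;> fin_cases i <;> assumption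

theorem nA (y : Fin 4 → V) (hy : ∀ i, Ro (y i) ∧ pA4 (y i)) (g : Gm bA y) :
    ∃ l : List V, (∀ a ∈ l, Ro a ∧ pA4 a) ∧ ((∀ i, sh l (y i) = bA i) ∨ ∀ i, sh l (y i) = ng (bA i)) :=
  fin (main (S := SA) (by decide +kernel) (by decide +kernel) (by decide +kernel) (by decide +kernel) tA y hy g)

theorem nD (y : Fin 4 → V) (hy : ∀ i, Ro (y i) ∧ pD5 (y i)) (g : Gm bA y) :
    ∃ l : List V, (∀ a ∈ l, Ro a ∧ pD5 a) ∧ ((∀ i, sh l (y i) = bA i) ∨ ∀ i, sh l (y i) = ng (bA i)) :=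
  fin (main (S := SD) (by decide +kernel) (by decide +kernel) (by decide +kernel) (by decide +kernel) tD y hy g)

theorem not_ee : ∀ z : V, pA41 z → ¬ gm 2 ee z ∧ ¬ gm 2 (ng ee) z := by decide +kernel

theorem a41 {x z : V} (hx : pA41 x) (hz : pA41 z) (g : gm 2 x z) : pA4 x := by
  rcases hx with h | rfl | rfl
  · exact h
  · exact ((not_ee z hz).1 g).elim
  · exact ((not_ee z hz).2 g).elim

theorem jobNA : JobNA := by
  rintro P (rfl | rfl | rfl) y hy g
  · exact nA y hy g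
  · have k : ∀ i j, i ≠ j → dot (bA i) (bA j) = 2 → pA4 (y i) := fun i j n e =>
      a41 (hy i).2 (hy j).2 ⟨(g i j).1.trans e, (g i j).2 n⟩
    obtain ⟨l, hl, q⟩ := nA y (fun i => ⟨(hy i).1, by
      fin_cases i
      · exact k 0 1 (by decide) (by decide)
      · exact k 1 0 (by decide) (by decide)
      · exact k 2 1 (by decide) (by decide)
      · exact k 3 2 (by decide) (by decide)⟩) g
    exact ⟨l, fun a ha => ⟨(hl a ha).1, Or.inl (hl a ha).2⟩, q⟩
  · exact nD y hy g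

theorem jobND : JobND := fun y hy g => by
  obtain ⟨l, hl, m, q⟩ :=
    main (S := SE) (by decide +kernel) (by decide +kernel) (by decide +kernel) (by decide +kernel) tE y hy g
  refine ⟨l, hl, m, q.imp (fun ⟨a, b, c, d⟩ i => ?_) fun ⟨a, b, c, d⟩ i => ?_⟩ <;> fin_cases i <;> assumption

end H88.Q3N
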