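/- Tower SQ (S4132): slot KT. -/
import Cfsg.Agent.H30.SQSpec

set_option autoImplicit false

open Cfsg Subgroup H30.SQ

namespace H88.SQ

universe u

/-- in a cyclic `2`-group every nontrivial element has the top power as a power -/
theorem top_pow {G : Type*} [Group G] {x : G} {m : ℕ} (h : x ^ 2 ^ (m + 1) = 1) (j : ℕ)
    (hj : x ^ j ≠ 1) : ∃ k : ℕ, (x ^ j) ^ k = x ^ 2 ^ m := by
  have j0 : j ≠ 0 := by rintro rfl; exact hj (pow_zero x)
  obtain ⟨a, b, ⟨b, rfl⟩, rfl⟩ := Nat.exists_eq_two_pow_mul_odd j0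
  have ha : a ≤ m := by
    by_contra ha
    obtain ⟨d, rfl⟩ : ∃ d, a = m + 1 + d := ⟨a - (m + 1), by omega⟩
    exact hj (by rw [pow_add 2 (m + 1), mul_assoc, pow_mul, h, one_pow])
  obtain ⟨d, rfl⟩ : ∃ d, m = a + d := ⟨m - a, by omega⟩
  refine ⟨2 ^ d, ?_⟩
  rw [← pow_mul, show 2 ^ a * (2 * b + 1) * 2 ^ d = 2 ^ (a + d + 1) * b + 2 ^ (a + d) by ring,
    pow_add, pow_mul, h, one_pow, one_mul]

theorem jobKT : JobKT.{u} := by
  intro G _ _ T U₁ n w v c z H S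
  obtain ⟨m, hm⟩ := H.ev
  have n2 : n / 2 = 2 ^ m := by rw [hm, pow_succ]; omega
  have nn : 2 * (n / 2) = n := by rw [n2, hm]; ring
  have vi1 : v⁻¹ = v := inv_eq_of_mul_eq_one_right S.v2
  have ce : c = w⁻¹ * (v * w * v⁻¹) := by rw [S.vw]; group
  have cT : c ∈ T := ce ▸ T.mul_mem (T.inv_mem S.wT)
    (T.mul_mem (T.mul_mem S.vT S.wT) (T.inv_mem S.vT))
  have vc : v * c * v⁻¹ = c⁻¹ := by
    have e : v * (v * w * v⁻¹) * v⁻¹ = w := by
      calc _ = (v * v) * w * (v * v)⁻¹ := by group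
        _ = w := by rw [S.v2]; group
    rw [S.vw] at e
    have e2 : w * c * (v * c * v⁻¹) = w :=
      calc _ = v * w * v⁻¹ * (v * c * v⁻¹) := by rw [S.vw]
        _ = v * (w * c) * v⁻¹ := by group
        _ = w := e
    calc _ = c⁻¹ * w⁻¹ * (w * c * (v * c * v⁻¹)) := by group
      _ = _ := by rw [e2]; group
  have uc : ∀ u ∈ U₁, Commute u c := fun u hu => ce ▸ (S.cw u hu).inv_right.mul_right
    (((S.cv u hu).mul_right (S.cw u hu)).mul_right (S.cv u hu).inv_right)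
  have cn : c ^ n = 1 := S.oc ▸ pow_orderOf_eq_one c
  have z2 : z * z = 1 := by rw [S.zc, ← pow_add, ← two_mul, nn, cn]
  have zi1 : z⁻¹ = z := inv_eq_of_mul_eq_one_right z2
  have z1 : z ≠ 1 := fun e => S.zU (e ▸ U₁.one_mem)
  have c1 : c ≠ 1 := fun e => z1 (by rw [S.zc, e, one_pow])
  have cen : ∀ y ∈ T, (∀ u ∈ U₁, Commute u y) → Commute w y → Commute v y → Cen T y :=
    fun y hy h1 h2 h3 => ⟨hy, fun s hs => by
      obtain ⟨u, hu, i, rfl | rfl⟩ := S.gen s hs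
      · exact (h1 u hu).mul_left (h2.pow_left i)
      · exact ((h1 u hu).mul_left (h2.pow_left i)).mul_left h3⟩
  have zc : Cen T z := cen z (S.zc ▸ T.pow_mem cT _) (fun u hu => S.zc ▸ (uc u hu).pow_right _)
    (S.zc ▸ S.wc.pow_right _) (by
      have : v * z * v⁻¹ = z := by rw [S.zc, ← conj_pow, vc, inv_pow, ← S.zc, zi1]
      exact mul_inv_eq_iff_eq_mul.1 this)
  have uq : ∀ j : ℤ, c ^ j ≠ 1 → ∃ k : ℕ, (c ^ j) ^ k = z := fun j hj => by
    obtain ⟨i, hi⟩ := (mem_powers_iff_mem_zpowers (x := c) (y := c ^ j)).2 ⟨j, rfl⟩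
    rw [← show c ^ i = c ^ j from hi] at hj ⊢
    rw [S.zc, n2]
    exact top_pow (hm ▸ cn) i hj
  have wU : w ^ n ∉ U₁ := fun h => S.zU (by simpa using U₁.mul_mem (U₁.inv_mem h) S.az)
  have w2 : w ^ 2 ^ (m + 1 + 1) = 1 := by rw [pow_succ', ← hm]; exact H.ex w S.wT
  have ow : orderOf w = 2 ^ (m + 1 + 1) :=
    orderOf_eq_prime_pow (fun e => wU (by rw [hm, e]; exact U₁.one_mem)) w2
  have vi : ∀ i : ℤ, v * w ^ i * v⁻¹ = w ^ i * c ^ i := fun i => by
    rw [← conj_zpow, S.vw, S.wc.mul_zpow]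
  have vn : ∀ i : ℕ, v * w ^ i * v⁻¹ = w ^ i * c ^ i := fun i => by
    simpa using vi i
  have wv : ∀ i : ℤ, w ^ i * v * (w ^ i)⁻¹ = c ^ (-i) * v := fun i => by
    calc _ = w ^ i * (v * w ^ (-i) * v⁻¹) * v := by group
      _ = _ := by rw [vi]; group
  have wn' : ∀ i : ℕ, w ^ i * v * (w ^ i)⁻¹ = c ^ (-(i : ℤ)) * v := fun i => by
    simpa using wv i
  have t1 : ∀ u ∈ U₁, ∀ i : ℕ, Commute (u * w ^ i) w ∧ Commute (u * w ^ i) c := fun u hu i =>
    ⟨(S.cw u hu).mul_left ((Commute.refl w).pow_left i), (uc u hu).mul_left (S.wc.pow_left i)⟩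
  have t2 : ∀ u ∈ U₁, ∀ i : ℕ, ¬ Commute (u * w ^ i * v) w := fun u hu i h => by
    have h2 : Commute v w := by
      simpa only [inv_mul_cancel_left] using (t1 u hu i).1.inv_left.mul_left h
    exact c1 (by rw [ce, h2.eq]; group)
  have jj : ∀ s ∈ T, (s * w * s⁻¹ = w ∧ s * c * s⁻¹ = c) ∨
      (s * w * s⁻¹ = w * c ∧ s * c * s⁻¹ = c⁻¹) := fun s hs => by
    obtain ⟨u, hu, i, rfl | rfl⟩ := S.gen s hs
    · exact Or.inl ⟨by rw [(t1 u hu i).1.eq, mul_inv_cancel_right],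
        by rw [(t1 u hu i).2.eq, mul_inv_cancel_right]⟩
    · refine Or.inr ⟨?_, ?_⟩
      · calc _ = u * w ^ i * (v * w * v⁻¹) * (u * w ^ i)⁻¹ := by group
          _ = _ := by rw [S.vw, ((t1 u hu i).1.mul_right (t1 u hu i).2).eq, mul_inv_cancel_right]
      · calc _ = u * w ^ i * (v * c * v⁻¹) * (u * w ^ i)⁻¹ := by group
          _ = _ := by rw [vc, (t1 u hu i).2.inv_right.eq, mul_inv_cancel_right]
  have br : Br T w := ⟨S.wT, fun a ha b hb => by
    rcases jj a ha with h | h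
    · exact Or.inl (mul_inv_eq_iff_eq_mul.1 h.1)
    rcases jj b hb with h' | h'
    · exact Or.inr (Or.inl (mul_inv_eq_iff_eq_mul.1 h'.1))
    refine Or.inr (Or.inr (mul_inv_eq_iff_eq_mul.1 ?_))
    calc _ = a * (b * w * b⁻¹) * a⁻¹ := by group
      _ = a * w * a⁻¹ * (a * c * a⁻¹) := by rw [h'.1]; group
      _ = w := by rw [h.1, h.2]; group⟩
  have mU : ∀ s, s ∈ U0 T w v ↔ s ∈ T ∧ Commute s w ∧ Commute s v := fun s => by
    simp only [U0, mem_inf, mem_centralizer_iff, Set.mem_insert_iff, Set.mem_singleton_iff,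
      forall_eq_or_imp, forall_eq]
    exact and_congr_right fun _ => ⟨fun h => ⟨h.1.symm, h.2.symm⟩, fun h => ⟨h.1.eq.symm, h.2.eq.symm⟩⟩
  have u0 : ∀ s : G, s ∈ U0 T w v ↔ s ∈ U₁ ∨ s * z ∈ U₁ := fun s => by
    constructor
    · intro h
      obtain ⟨h1, h2, h3⟩ := (mU s).1 h
      obtain ⟨u, hu, i, rfl | rfl⟩ := S.gen s h1
      · have h4 : Commute (w ^ i) v := by simpa using (S.cv u hu).inv_left.mul_left h3
        have h5 : c ^ i = 1 := by
          have := vn i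
          rw [← h4.eq, mul_inv_cancel_right] at this
          exact (mul_eq_left.1 this.symm)
        obtain ⟨t, rfl⟩ := S.oc ▸ orderOf_dvd_of_pow_eq_one h5
        have e : w ^ (n * 2) = 1 := by rw [mul_comm]; exact H.ex w S.wT
        rcases Nat.even_or_odd' t with ⟨t, rfl | rfl⟩
        · left; rw [← mul_assoc, pow_mul, e, one_pow, mul_one]; exact hu
        · right
          rw [mul_add, ← mul_assoc, pow_add, pow_mul, e, one_pow, one_mul, mul_one, mul_assoc]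
          exact U₁.mul_mem hu S.az
      · exact absurd h2 (t2 u hu i)
    · have k : ∀ u ∈ U₁, u ∈ U0 T w v := fun u hu => (mU u).2 ⟨S.le hu, S.cw u hu, S.cv u hu⟩
      rintro (h | h)
      · exact k s h
      · simpa using (U0 T w v).mul_mem (k _ h) ((U0 T w v).inv_mem
          ((mU z).2 ⟨zc.1, (zc.2 w S.wT).symm, (zc.2 v S.vT).symm⟩))
  have wwc : ∀ i : ℕ, (w * w * c) ^ i = w ^ i * w ^ i * c ^ i := fun i => by
    rw [(S.wc.mul_left S.wc).mul_pow, (Commute.refl w).mul_pow]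
  refine ⟨cT, vc, uc, zc, z1, z2, uq, fun j hj => ?_, u0, br,
    fun s hs => (jj s hs).imp And.left And.left, fun s hs => ?_,
    fun s hs => (jj s hs).imp And.right And.right, fun s hs h1 h2 => ?_, ?_, fun i => ?_, ?_,
    H.top_cen br, wU, fun s hs => ?_, wv, vi, fun s hs h => ?_, fun s hs => ?_⟩
  · by_contra h
    obtain ⟨k, hk⟩ := uq j h
    exact S.zU (hk ▸ U₁.pow_mem hj k)
  · have key : ∀ u ∈ U₁, ∀ i : ℕ, u * w ^ i * v * (u * w ^ i)⁻¹ = c ^ (-(i : ℤ)) * v := fun u hu i => by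
      calc _ = u * (w ^ i * v * (w ^ i)⁻¹) * u⁻¹ := by group
        _ = _ := by rw [wn', (((uc u hu).zpow_right _).mul_right (S.cv u hu)).eq, mul_inv_cancel_right]
    obtain ⟨u, hu, i, rfl | rfl⟩ := S.gen s hs
    · exact ⟨_, key u hu i⟩
    · exact ⟨_, Eq.trans (by group) (key u hu i)⟩
  · obtain ⟨u, hu, i, rfl | rfl⟩ := S.gen s hs
    · have e : w ^ (2 * i) = (u * u)⁻¹ := by
        rw [eq_inv_iff_mul_eq_one, mul_eq_one_comm, ← h1, two_mul, pow_add,
          ((S.cw u hu).pow_right i).mul_mul_mul_comm]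
      have e1 : w ^ (2 * i) = 1 := by
        by_contra h
        obtain ⟨k, hk⟩ := top_pow w2 _ h
        exact wU (by rw [hm, ← hk, e]; exact U₁.pow_mem (U₁.inv_mem (U₁.mul_mem hu hu)) k)
      have d := orderOf_dvd_of_pow_eq_one e1
      rw [ow, pow_succ', ← hm] at d
      obtain ⟨t, rfl⟩ := Nat.dvd_of_mul_dvd_mul_left two_pos d
      refine (mU _).2 ⟨hs, h2, (S.cv u hu).mul_left (Commute.symm ?_)⟩
      have := vn (n * t)
      rw [pow_mul c, cn, one_pow, mul_one] at this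
      exact mul_inv_eq_iff_eq_mul.1 this
    · exact absurd h2 (t2 u hu i)
  · refine cen _ (T.mul_mem (T.mul_mem S.wT S.wT) cT)
      (fun u hu => ((S.cw u hu).mul_right (S.cw u hu)).mul_right (uc u hu))
      (((Commute.refl w).mul_right (Commute.refl w)).mul_right S.wc) (mul_inv_eq_iff_eq_mul.1 ?_)
    calc _ = v * w * v⁻¹ * (v * w * v⁻¹) * (v * c * v⁻¹) := by group
      _ = w * (c * w) := by rw [S.vw, vc]; group
      _ = _ := by rw [← S.wc.eq, mul_assoc]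
  · calc _ = w ^ i * (v * w ^ i * v⁻¹) * (v * v) := by rw [sq]; group
      _ = _ := by rw [vn, S.v2, wwc, mul_one, mul_assoc]
  · rw [wwc, ← pow_add, ← two_mul, nn, ← S.zc]
  · rcases (u0 s).1 hs with h | h
    · exact U₁.mul_mem h h
    · have := U₁.mul_mem h h
      rwa [(zc.2 s ((mU s).1 hs).1).symm.mul_mul_mul_comm, z2, mul_one] at this
  · obtain ⟨u, hu, i, rfl | rfl⟩ := S.gen s hs
    · exact absurd (t1 u hu i).1 h
    · have e := ((t1 u hu i).1.pow_right (n / 2)).eq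
      calc _ = w ^ (n / 2) * (u * w ^ i) * v * (w ^ (n / 2))⁻¹ := by group
        _ = u * w ^ i * (w ^ (n / 2) * v * (w ^ (n / 2))⁻¹) := by rw [← e]; group
        _ = _ := by
          rw [wn', zpow_neg, zpow_natCast, ← S.zc, zi1, ← (zc.2 v S.vT).eq, mul_assoc (u * w ^ i)]
  · have hw : w ∈ closure ({w, v} : Set G) := subset_closure (by simp)
    have hv : v ∈ closure ({w, v} : Set G) := subset_closure (by simp)
    obtain ⟨u, hu, i, rfl | rfl⟩ := S.gen s hs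
    · exact ⟨u, hu, _, pow_mem hw i, rfl⟩
    · exact ⟨u, hu, _, mul_mem (pow_mem hw i) hv, mul_assoc _ _ _⟩

end H88.SQ
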