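import Cfsg.Agent.H91.VCSpec

/-! VC tower (row S4070): the transport to `Type`. -/

set_option autoImplicit false

namespace H88.VCW

open H33.Solv H91.VC Subgroup MulAction

universe u v

theorem key {G : Type u} {V : Type v} [Group G] [Finite G] [Group.IsSolvable G]
    {p : ℕ} [Fact p.Prime] [AddCommGroup V] [Module (ZMod p) V] [Finite V] [DistribMulAction G V]
    [FaithfulSMul G V] (hcr : ∀ W : Submodule (ZMod p) V, (∀ (g : G) (w : V), w ∈ W → g • w ∈ W) →
      ∃ W' : Submodule (ZMod p) V, (∀ (g : G) (w : V), w ∈ W' → g • w ∈ W') ∧ IsCompl W W') (d : ℕ)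
    (h : ∀ (G' V' : Type) [Group G'] [Finite G'] [AddCommGroup V'] [Finite V'] [DistribMulAction G' V'],
      Group.IsSolvable G' → Nat.card G' = Nat.card G → Nat.card V' = Nat.card V → CR G' V' →
      Orb G' V' 1 d) : ∃ v : V, derivedSeries ↥(stabilizer G v) d = ⊥ := by
  let G' := Shrink.{0} G
  let V' := Shrink.{0} V
  let a : G' ≃* G := Shrink.mulEquiv
  let b : V' ≃+ V := Shrink.addEquiv
  have : Finite G' := Finite.of_equiv _ a.symm.toEquiv
  have : Finite V' := Finite.of_equiv _ b.symm.toEquiv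
  let _ : DistribMulAction G' V' :=
    { smul := fun g w => b.symm (a g • b w)
      one_smul := fun w => by change b.symm (a 1 • b w) = w; simp
      mul_smul := fun g k w => by
        change b.symm (a (g * k) • b w) = b.symm (a g • b (b.symm (a k • b w)))
        simp [mul_smul]
      smul_zero := fun g => by change b.symm (a g • b 0) = 0; simp
      smul_add := fun g w x => by
        change b.symm (a g • b (w + x)) = b.symm (a g • b w) + b.symm (a g • b x)
        simp }
  have e : ∀ (g : G') (w : V'), b (g • w) = a g • b w := fun g w => b.apply_symm_apply _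
  have cr : CR G' V' := fun U hU => by
    obtain ⟨W, w1, w2⟩ := hcr (AddSubgroup.toZModSubmodule p (U.comap b.symm.toAddMonoidHom))
      fun g w hw => by
        have := hU (a.symm g) _ hw
        change b.symm (a (a.symm g) • b (b.symm w)) ∈ U at this
        rwa [a.apply_symm_apply, b.apply_symm_apply] at this
    refine ⟨W.toAddSubgroup.comap b.toAddMonoidHom, fun g w hw => ?_, ?_, ?_⟩
    · change b (g • w) ∈ W
      rw [e]
      exact w1 _ _ hw
    · refine eq_bot_iff.2 fun x hx => b.injective ?_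
      rw [map_zero]
      exact Submodule.disjoint_def.1 w2.disjoint _
        (show b.symm (b x) ∈ U by rw [b.symm_apply_apply]; exact hx.1) hx.2
    · refine eq_top_iff.2 fun x _ => ?_
      obtain ⟨y, hy, z, hz, r⟩ := Submodule.mem_sup.1 (w2.sup_eq_top.ge (Submodule.mem_top (x := b x)))
      refine AddSubgroup.mem_sup.2 ⟨b.symm y, hy, b.symm z, ?_, by rw [← map_add, r, b.symm_apply_apply]⟩
      change b (b.symm z) ∈ W
      rwa [b.apply_symm_apply]
  obtain ⟨w, h1, -⟩ := h G' V'
    (Group.isSolvable_of_isSolvable_injective (f := a.toMonoidHom) a.injective)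
    (Nat.card_congr a.toEquiv) (Nat.card_congr b.toEquiv) cr
  let f : stabilizer G (b (w 0)) →* G' := a.symm.toMonoidHom.comp (Subgroup.subtype _)
  let f' : stabilizer G (b (w 0)) →* stabilizer G' (w 0) := f.codRestrict _ fun g => b.injective (by
    rw [e]
    exact (congrArg (· • b (w 0)) (a.apply_symm_apply g.1)).trans g.2)
  refine ⟨b (w 0), eq_bot_iff.2 fun g hg => Subtype.ext (eq_of_smul_eq_smul (α := V) fun x => ?_)⟩
  have h2 : f' g ∈ derivedSeries _ d := map_derivedSeries_le_derivedSeries f' d ⟨g, hg, rfl⟩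
  rw [← ds_top] at h2
  have h3 := congrArg b (h1 0 one_pos _ ((ds_sub _ d).le ⟨_, h2, rfl⟩) (b.symm x))
  rw [e, b.apply_symm_apply] at h3
  rw [OneMemClass.coe_one, one_smul]
  exact (congrArg (· • x) (a.apply_symm_apply g.1)).symm.trans h3

theorem jobWRAP : JobWRAP.{u, v} := by
  intro hA hB G V _ _ _ p _ _ _ _ _ _ hcr
  refine ⟨key hcr 9 fun G' V' _ _ _ _ _ s _ _ c => hA G' V' s c, fun o hp => ?_⟩
  obtain ⟨w, hw⟩ := key hcr 1 fun G' V' _ _ _ _ _ s h1 h2 c => hB G' V' s (h1 ▸ o) (by
    rw [h2, Module.natCard_eq_pow_finrank (K := ZMod p), Nat.card_zmod]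
    exact ((Fact.out : p.Prime).odd_of_ne_two hp).pow) c
  refine ⟨w, ⟨⟨fun x y => commutatorElement_eq_one_iff_mul_comm.1 (hw.le ?_)⟩⟩⟩
  exact commutator_mem_commutator (mem_top x) (mem_top y)

end H88.VCW
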